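import Cfsg.Agent.Lib.SL3Pres.SL2Id
import Cfsg.Agent.Lib.SL2Pres.Fields

/-!
The data of the presentation of `SL₃(F)`: an image of `SL₂(F)` and an element `c` of order three, with
the torus acting linearly on all six root groups.
-/

set_option autoImplicit false
set_option linter.unusedSectionVars false

namespace CfsgLib.SL3Pres

open CfsgLib.SL2Pres Polynomial
open scoped MatrixGroups commutatorElement

variable {F : Type*} [Field F] [Finite F]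

/-- An additive submonoid with `1` stable under the square of a generator of `Fˣ` is everything. -/
theorem mem_of_sq_closed {ω : Fˣ} (hω : ∀ x : Fˣ, x ∈ Subgroup.zpowers ω) (S : AddSubmonoid F)
    (h1 : (1 : F) ∈ S) (hmul : ∀ a ∈ S, (ω : F) ^ 2 * a ∈ S) (a : F) : a ∈ S := by
  obtain ⟨p, hp⟩ := CharP.exists F
  have : Fact p.Prime := ⟨CharP.char_is_prime F p⟩
  letI : Algebra (ZMod p) F := ZMod.algebra F p
  obtain ⟨P, rfl⟩ := aeval_sq_surjective (p := p) hω a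
  induction P using Polynomial.induction_on' with
  | add P Q hP hQ => rw [map_add]; exact S.add_mem hP hQ
  | monomial n r =>
    rw [aeval_monomial]
    have hn : ((ω : F) ^ 2) ^ n ∈ S := by
      induction n with
      | zero => rw [pow_zero]; exact h1
      | succ n ih => rw [pow_succ']; exact hmul _ ih
    rw [← ZMod.natCast_zmod_val r, map_natCast, ← nsmul_eq_mul]
    exact S.nsmul_mem hn _

/-- The relations of the presentation that involve both `SL₂(F)` and the element of order three. -/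
structure Setup (ω : Fˣ) (G : Type*) [Group G] where
  gen : ∀ x : Fˣ, x ∈ Subgroup.zpowers ω
  φ : SL(2, F) →* G
  c : G
  c_cube : c * c * c = 1
  wcw : φ wS * c * φ wS = c * c
  torus : Commute (φ (dS ω)) (c * φ (dS ω) * c⁻¹)
  hX : φ (dS ω) * (c * φ (xS 1) * c⁻¹) * (φ (dS ω))⁻¹ = c * φ (xS ((ω⁻¹ : Fˣ) : F)) * c⁻¹
  hY : φ (dS ω) * (c * φ (yS 1) * c⁻¹) * (φ (dS ω))⁻¹ = c * φ (yS (ω : F)) * c⁻¹
  hXX : ⁅φ (xS 1), c * φ (xS 1) * c⁻¹⁆ = c * (c * φ (yS (-1)) * c⁻¹) * c⁻¹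

namespace Setup

variable {ω : Fˣ} {G : Type*} [Group G] (S : Setup ω G)

/-- Conjugation by `c`. -/
def rot : G ≃* G := MulAut.conj S.c

theorem rot_apply (g : G) : S.rot g = S.c * g * S.c⁻¹ := rfl

theorem rot_rot_rot (g : G) : S.rot (S.rot (S.rot g)) = g := by
  simp only [rot_apply]
  calc S.c * (S.c * (S.c * g * S.c⁻¹) * S.c⁻¹) * S.c⁻¹
      = (S.c * S.c * S.c) * g * (S.c * S.c * S.c)⁻¹ := by group
    _ = g := by rw [S.c_cube, one_mul, inv_one, mul_one]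

/-- The six root maps. -/
def x0 (a : F) : G := S.φ (xS a)
/-- Root map. -/
def x1 (a : F) : G := S.rot (S.x0 a)
/-- Root map. -/
def x2 (a : F) : G := S.rot (S.x1 a)
/-- Root map. -/
def y0 (a : F) : G := S.φ (yS a)
/-- Root map. -/
def y1 (a : F) : G := S.rot (S.y0 a)
/-- Root map. -/
def y2 (a : F) : G := S.rot (S.y1 a)

theorem rot_x0 (a : F) : S.rot (S.x0 a) = S.x1 a := rfl
theorem rot_x1 (a : F) : S.rot (S.x1 a) = S.x2 a := rfl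
theorem rot_x2 (a : F) : S.rot (S.x2 a) = S.x0 a := S.rot_rot_rot _
theorem rot_y0 (a : F) : S.rot (S.y0 a) = S.y1 a := rfl
theorem rot_y1 (a : F) : S.rot (S.y1 a) = S.y2 a := rfl
theorem rot_y2 (a : F) : S.rot (S.y2 a) = S.y0 a := S.rot_rot_rot _

theorem x0_add (a b : F) : S.x0 (a + b) = S.x0 a * S.x0 b := by rw [x0, xS_add, map_mul]; rfl
theorem y0_add (a b : F) : S.y0 (a + b) = S.y0 a * S.y0 b := by rw [y0, yS_add, map_mul]; rfl
theorem x1_add (a b : F) : S.x1 (a + b) = S.x1 a * S.x1 b := by simp only [x1, x0_add, map_mul]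
theorem y1_add (a b : F) : S.y1 (a + b) = S.y1 a * S.y1 b := by simp only [y1, y0_add, map_mul]
theorem x2_add (a b : F) : S.x2 (a + b) = S.x2 a * S.x2 b := by simp only [x2, x1_add, map_mul]
theorem y2_add (a b : F) : S.y2 (a + b) = S.y2 a * S.y2 b := by simp only [y2, y1_add, map_mul]

theorem x0_zero : S.x0 0 = 1 := by rw [x0, xS_zero, map_one]
theorem y0_zero : S.y0 0 = 1 := by rw [y0, yS_zero, map_one]
theorem x1_zero : S.x1 0 = 1 := by rw [x1, x0_zero, map_one]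
theorem y1_zero : S.y1 0 = 1 := by rw [y1, y0_zero, map_one]
theorem x2_zero : S.x2 0 = 1 := by rw [x2, x1_zero, map_one]
theorem y2_zero : S.y2 0 = 1 := by rw [y2, y1_zero, map_one]

theorem x0_neg (a : F) : S.x0 (-a) = (S.x0 a)⁻¹ := by rw [x0, xS_neg, map_inv]; rfl
theorem y0_neg (a : F) : S.y0 (-a) = (S.y0 a)⁻¹ := by rw [y0, yS_neg, map_inv]; rfl
theorem x1_neg (a : F) : S.x1 (-a) = (S.x1 a)⁻¹ := by simp only [x1, x0_neg, map_inv]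
theorem y1_neg (a : F) : S.y1 (-a) = (S.y1 a)⁻¹ := by simp only [y1, y0_neg, map_inv]
theorem x2_neg (a : F) : S.x2 (-a) = (S.x2 a)⁻¹ := by simp only [x2, x1_neg, map_inv]
theorem y2_neg (a : F) : S.y2 (-a) = (S.y2 a)⁻¹ := by simp only [y2, y1_neg, map_inv]

/-- The Weyl element. -/
def w : G := S.φ wS
/-- The rotated Weyl element. -/
def v : G := S.rot S.w
/-- The torus. -/
def D : Fˣ →* G := S.φ.comp dS
/-- The rotated torus. -/
def T : Fˣ →* G := S.rot.toMonoidHom.comp S.D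

theorem T_apply (s : Fˣ) : S.T s = S.rot (S.D s) := rfl

theorem w_mul_c : S.w * S.c = S.c * S.c * S.w⁻¹ := eq_mul_inv_of_mul_eq S.wcw

theorem c_eq : S.c = S.w * S.v := by
  rw [v, rot_apply, show S.w * (S.c * S.w * S.c⁻¹) = S.w * S.c * S.w * S.c⁻¹ by group,
    show S.w * S.c * S.w = S.c * S.c from S.wcw, mul_inv_cancel_right]

theorem w_conj_x0 (a : F) : S.w * S.x0 a * S.w⁻¹ = S.y0 (-a) := by
  rw [w, x0, ← map_mul, ← map_inv, ← map_mul, wS_conj_xS]; rfl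

theorem w_conj_y0 (a : F) : S.w * S.y0 a * S.w⁻¹ = S.x0 (-a) := by
  rw [w, y0, ← map_mul, ← map_inv, ← map_mul, wS_conj_yS]; rfl

theorem winv_conj_x0 (a : F) : S.w⁻¹ * S.x0 a * S.w = S.y0 (-a) := by
  rw [w, x0, ← map_inv, ← map_mul, ← map_mul, wS_inv_conj_xS]; rfl

theorem winv_conj_y0 (a : F) : S.w⁻¹ * S.y0 a * S.w = S.x0 (-a) := by
  rw [w, y0, ← map_inv, ← map_mul, ← map_mul, wS_inv_conj_yS]; rfl

/-- `w` moves the first rotated copy onto the second. -/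
theorem w_conj_rot (g : G) : S.w * S.rot g * S.w⁻¹ = S.rot (S.rot (S.w⁻¹ * g * S.w)) := by
  simp only [rot_apply]
  rw [show S.w * (S.c * g * S.c⁻¹) * S.w⁻¹ = S.w * S.c * g * (S.w * S.c)⁻¹ by group, S.w_mul_c]
  group

theorem w_conj_x1 (a : F) : S.w * S.x1 a * S.w⁻¹ = S.y2 (-a) := by
  rw [← rot_x0, w_conj_rot, winv_conj_x0, rot_y0, rot_y1]

theorem w_conj_y1 (a : F) : S.w * S.y1 a * S.w⁻¹ = S.x2 (-a) := by
  rw [← rot_y0, w_conj_rot, winv_conj_y0, rot_x0, rot_x1]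

theorem D_w (s : Fˣ) : S.w * S.D s * S.w⁻¹ = S.D s⁻¹ := by
  rw [w, D, MonoidHom.comp_apply, MonoidHom.comp_apply, ← map_mul, ← map_inv, ← map_mul, wS_dS]

theorem w_mul_w : S.w * S.w = S.D (-1) := by
  rw [w, D, MonoidHom.comp_apply, ← map_mul, wS_mul_wS]

include S in
theorem exists_pow (s : Fˣ) : ∃ n : ℕ, ω ^ n = s := exists_pow_eq S.gen s

theorem commute_D (s t : Fˣ) : Commute (S.D s) (S.T t) := by
  obtain ⟨n, rfl⟩ := S.exists_pow s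
  obtain ⟨m, rfl⟩ := S.exists_pow t
  rw [map_pow, map_pow]
  exact Commute.pow_pow S.torus n m

theorem D_x0 (s : Fˣ) (a : F) : S.D s * S.x0 a * (S.D s)⁻¹ = S.x0 ((s : F) ^ 2 * a) := by
  rw [D, MonoidHom.comp_apply, x0, ← map_mul, ← map_inv, ← map_mul, dS_xS]; rfl

theorem D_y0 (s : Fˣ) (a : F) :
    S.D s * S.y0 a * (S.D s)⁻¹ = S.y0 (((s⁻¹ : Fˣ) : F) ^ 2 * a) := by
  rw [D, MonoidHom.comp_apply, y0, ← map_mul, ← map_inv, ← map_mul, dS_yS]; rfl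

theorem T_x1 (s : Fˣ) (a : F) : S.T s * S.x1 a * (S.T s)⁻¹ = S.x1 ((s : F) ^ 2 * a) := by
  rw [T_apply, x1, ← map_mul, ← map_inv, ← map_mul, D_x0]; rfl

theorem T_y1 (s : Fˣ) (a : F) :
    S.T s * S.y1 a * (S.T s)⁻¹ = S.y1 (((s⁻¹ : Fˣ) : F) ^ 2 * a) := by
  rw [T_apply, y1, ← map_mul, ← map_inv, ← map_mul, D_y0]; rfl

theorem h_x1 (a : F) : S.D ω * S.x1 a * (S.D ω)⁻¹ = S.x1 (((ω⁻¹ : Fˣ) : F) * a) := by
  have h0 := S.T_x1 ω
  let A : AddSubmonoid F :=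
    { carrier := {a | S.D ω * S.x1 a * (S.D ω)⁻¹ = S.x1 (((ω⁻¹ : Fˣ) : F) * a)}
      zero_mem' := by simp [x1_zero]
      add_mem' := fun {a b} ha hb => by
        simp only [Set.mem_ofPred_eq] at ha hb ⊢
        rw [mul_add, x1_add, x1_add, ← ha, ← hb]; group }
  refine mem_of_sq_closed S.gen A ?_ (fun a ha => ?_) a
  · show S.D ω * S.x1 1 * (S.D ω)⁻¹ = S.x1 (((ω⁻¹ : Fˣ) : F) * 1)
    rw [mul_one]; exact S.hX
  · show S.D ω * S.x1 ((ω : F) ^ 2 * a) * (S.D ω)⁻¹ = S.x1 (((ω⁻¹ : Fˣ) : F) * ((ω : F) ^ 2 * a))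
    have ha' : S.D ω * S.x1 a * (S.D ω)⁻¹ = S.x1 (((ω⁻¹ : Fˣ) : F) * a) := ha
    have hc := (S.commute_D ω ω).eq
    rw [← h0, show S.D ω * (S.T ω * S.x1 a * (S.T ω)⁻¹) * (S.D ω)⁻¹ =
      S.D ω * S.T ω * S.x1 a * (S.D ω * S.T ω)⁻¹ by group, hc,
      show S.T ω * S.D ω * S.x1 a * (S.T ω * S.D ω)⁻¹ =
      S.T ω * (S.D ω * S.x1 a * (S.D ω)⁻¹) * (S.T ω)⁻¹ by group, ha', h0]
    congr 1; ring

theorem h_y1 (a : F) : S.D ω * S.y1 a * (S.D ω)⁻¹ = S.y1 ((ω : F) * a) := by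
  have h0 := S.T_y1 ω⁻¹
  simp only [inv_inv] at h0
  let A : AddSubmonoid F :=
    { carrier := {a | S.D ω * S.y1 a * (S.D ω)⁻¹ = S.y1 ((ω : F) * a)}
      zero_mem' := by simp [y1_zero]
      add_mem' := fun {a b} ha hb => by
        simp only [Set.mem_ofPred_eq] at ha hb ⊢
        rw [mul_add, y1_add, y1_add, ← ha, ← hb]; group }
  refine mem_of_sq_closed S.gen A ?_ (fun a ha => ?_) a
  · show S.D ω * S.y1 1 * (S.D ω)⁻¹ = S.y1 ((ω : F) * 1)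
    rw [mul_one]; exact S.hY
  · show S.D ω * S.y1 ((ω : F) ^ 2 * a) * (S.D ω)⁻¹ = S.y1 ((ω : F) * ((ω : F) ^ 2 * a))
    have ha' : S.D ω * S.y1 a * (S.D ω)⁻¹ = S.y1 ((ω : F) * a) := ha
    have hc := (S.commute_D ω ω⁻¹).eq
    rw [← h0, show S.D ω * (S.T ω⁻¹ * S.y1 a * (S.T ω⁻¹)⁻¹) * (S.D ω)⁻¹ =
      S.D ω * S.T ω⁻¹ * S.y1 a * (S.D ω * S.T ω⁻¹)⁻¹ by group, hc,
      show S.T ω⁻¹ * S.D ω * S.y1 a * (S.T ω⁻¹ * S.D ω)⁻¹ =
      S.T ω⁻¹ * (S.D ω * S.y1 a * (S.D ω)⁻¹) * (S.T ω⁻¹)⁻¹ by group, ha', h0]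
    congr 1; ring

theorem D_x1 (s : Fˣ) (a : F) : S.D s * S.x1 a * (S.D s)⁻¹ = S.x1 (((s⁻¹ : Fˣ) : F) * a) := by
  obtain ⟨n, rfl⟩ := S.exists_pow s
  induction n generalizing a with
  | zero => simp
  | succ n ih =>
    rw [pow_succ, map_mul, show S.D (ω ^ n) * S.D ω * S.x1 a * (S.D (ω ^ n) * S.D ω)⁻¹ =
      S.D (ω ^ n) * (S.D ω * S.x1 a * (S.D ω)⁻¹) * (S.D (ω ^ n))⁻¹ by group, h_x1, ih]
    congr 1; rw [mul_inv_rev, Units.val_mul]; ring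

theorem D_y1 (s : Fˣ) (a : F) : S.D s * S.y1 a * (S.D s)⁻¹ = S.y1 ((s : F) * a) := by
  obtain ⟨n, rfl⟩ := S.exists_pow s
  induction n generalizing a with
  | zero => simp
  | succ n ih =>
    rw [pow_succ, map_mul, show S.D (ω ^ n) * S.D ω * S.y1 a * (S.D (ω ^ n) * S.D ω)⁻¹ =
      S.D (ω ^ n) * (S.D ω * S.y1 a * (S.D ω)⁻¹) * (S.D (ω ^ n))⁻¹ by group, h_y1, ih]
    congr 1; rw [Units.val_mul]; ring

theorem D_w_conj (s : Fˣ) (g : G) :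
    S.D s * (S.w * g * S.w⁻¹) * (S.D s)⁻¹ = S.w * (S.D s⁻¹ * g * (S.D s⁻¹)⁻¹) * S.w⁻¹ := by
  have h := S.D_w s⁻¹
  rw [inv_inv] at h
  rw [← h]; group

theorem D_y2 (s : Fˣ) (a : F) : S.D s * S.y2 a * (S.D s)⁻¹ = S.y2 ((s : F) * a) := by
  rw [← neg_neg a, ← w_conj_x1, D_w_conj, D_x1, inv_inv, w_conj_x1]
  congr 1; ring

theorem D_x2 (s : Fˣ) (a : F) : S.D s * S.x2 a * (S.D s)⁻¹ = S.x2 (((s⁻¹ : Fˣ) : F) * a) := by
  rw [← neg_neg a, ← w_conj_y1, D_w_conj, D_y1, w_conj_y1]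
  congr 1; ring

theorem T_x0 (s : Fˣ) (a : F) : S.T s * S.x0 a * (S.T s)⁻¹ = S.x0 (((s⁻¹ : Fˣ) : F) * a) := by
  rw [T_apply, ← rot_x2, ← map_mul, ← map_inv, ← map_mul, D_x2, rot_x2]

theorem T_y0 (s : Fˣ) (a : F) : S.T s * S.y0 a * (S.T s)⁻¹ = S.y0 ((s : F) * a) := by
  rw [T_apply, ← rot_y2, ← map_mul, ← map_inv, ← map_mul, D_y2, rot_y2]

theorem T_x2 (s : Fˣ) (a : F) : S.T s * S.x2 a * (S.T s)⁻¹ = S.x2 (((s⁻¹ : Fˣ) : F) * a) := by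
  rw [T_apply, ← rot_x1, ← map_mul, ← map_inv, ← map_mul, D_x1, rot_x1]

theorem T_y2 (s : Fˣ) (a : F) : S.T s * S.y2 a * (S.T s)⁻¹ = S.y2 ((s : F) * a) := by
  rw [T_apply, ← rot_y1, ← map_mul, ← map_inv, ← map_mul, D_y1, rot_y1]

theorem w_conj_x2 (a : F) : S.w * S.x2 a * S.w⁻¹ = S.y1 a := by
  have h : S.w * S.x2 a * S.w⁻¹ = S.D (-1) * S.y1 (-a) * (S.D (-1))⁻¹ := by
    rw [← neg_neg a, ← S.w_conj_y1, neg_neg, ← w_mul_w]; group
  rw [h, D_y1, Units.val_neg, Units.val_one, neg_one_mul, neg_neg]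

theorem w_conj_y2 (a : F) : S.w * S.y2 a * S.w⁻¹ = S.x1 a := by
  have h : S.w * S.y2 a * S.w⁻¹ = S.D (-1) * S.x1 (-a) * (S.D (-1))⁻¹ := by
    rw [← neg_neg a, ← S.w_conj_x1, neg_neg, ← w_mul_w]; group
  rw [h, D_x1, inv_neg_one, Units.val_neg, Units.val_one, neg_one_mul, neg_neg]

theorem v_conj (g : G) : S.v * S.rot g * S.v⁻¹ = S.rot (S.w * g * S.w⁻¹) := by
  rw [v, map_mul, map_mul, map_inv]

theorem v_conj_x0 (a : F) : S.v * S.x0 a * S.v⁻¹ = S.y2 a := by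
  rw [← rot_x2, v_conj, w_conj_x2, rot_y1]

theorem v_conj_y0 (a : F) : S.v * S.y0 a * S.v⁻¹ = S.x2 a := by
  rw [← rot_y2, v_conj, w_conj_y2, rot_x1]

theorem v_conj_x1 (a : F) : S.v * S.x1 a * S.v⁻¹ = S.y1 (-a) := by
  rw [← rot_x0, v_conj, w_conj_x0, rot_y0]

theorem v_conj_y1 (a : F) : S.v * S.y1 a * S.v⁻¹ = S.x1 (-a) := by
  rw [← rot_y0, v_conj, w_conj_y0, rot_x0]

theorem v_conj_x2 (a : F) : S.v * S.x2 a * S.v⁻¹ = S.y0 (-a) := by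
  rw [← rot_x1, v_conj, w_conj_x1, rot_y2]

theorem v_conj_y2 (a : F) : S.v * S.y2 a * S.v⁻¹ = S.x0 (-a) := by
  rw [← rot_y1, v_conj, w_conj_y1, rot_x2]

theorem v_mul_v : S.v * S.v = S.T (-1) := by rw [v, ← map_mul, w_mul_w]; rfl

theorem v_T (s : Fˣ) : S.v * S.T s * S.v⁻¹ = S.T s⁻¹ := by rw [T_apply, v_conj, D_w]; rfl

end Setup

end CfsgLib.SL3Pres
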