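import Cfsg.Agent.Lib.SL3Pres.Comm
import Cfsg.Agent.Lib.ClassicalLinear.Card

/-!
The coset enumeration: the group is no bigger than `SL₃(F)`.
-/

set_option autoImplicit false
set_option linter.unusedSectionVars false

namespace CfsgLib.SL3Pres

open CfsgLib.SL2Pres
open scoped MatrixGroups commutatorElement Pointwise

variable {F : Type*} [Field F] [Finite F]

theorem le_normalizer_of_conj {G : Type*} [Group G] {H N : Subgroup G}
    (h : ∀ g ∈ H, ∀ n ∈ N, g * n * g⁻¹ ∈ N) : H ≤ Subgroup.normalizer (N : Set G) := by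
  intro g hg
  rw [Subgroup.mem_normalizer_iff]
  refine fun n => ⟨h g hg n, fun hn => ?_⟩
  have := h g⁻¹ (inv_mem hg) _ hn
  simpa [mul_assoc] using this

namespace Setup

variable {ω : Fˣ} {G : Type*} [Group G] (S : Setup ω G)

/-- The normal abelian subgroup of the point stabiliser. -/
def uSub (hR : S.Rels) : Subgroup G where
  carrier := {g | ∃ a b, S.x1 a * S.y2 b = g}
  one_mem' := ⟨0, 0, by rw [x1_zero, y2_zero, one_mul]⟩
  mul_mem' := by
    rintro _ _ ⟨a, b, rfl⟩ ⟨a', b', rfl⟩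
    refine ⟨a + a', b + b', ?_⟩
    rw [x1_add, y2_add, mul_assoc, mul_assoc, ← mul_assoc (S.x1 a'), ← mul_assoc (S.y2 b),
      (hR.x1_y2 a' b).eq]
  inv_mem' := by
    rintro _ ⟨a, b, rfl⟩
    exact ⟨-a, -b, by rw [x1_neg, y2_neg, mul_inv_rev]; exact (hR.x1_y2 a b).inv_inv.eq⟩

/-- The point stabiliser. -/
def kSub (hR : S.Rels) : Subgroup G := S.uSub hR ⊔ (S.φ.range ⊔ S.T.range)

theorem φ_mem_closure {H : Subgroup G} (hx : ∀ t, S.x0 t ∈ H) (hy : ∀ t, S.y0 t ∈ H) (g : SL(2, F)) :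
    S.φ g ∈ H := by
  have : H.comap S.φ = ⊤ := closure_roots _ (fun t => hx t) (fun t => hy t)
  exact (this ▸ Subgroup.mem_top g : g ∈ H.comap S.φ)

theorem x1_conj_x0 (hR : S.Rels) (t a : F) :
    S.x0 t * S.x1 a * (S.x0 t)⁻¹ = S.x1 a * S.y2 (-(t * a)) := by
  rw [← (hR.x1_y2 a _).eq.symm, ← hR.x0_x1 t a, commutatorElement_def]; group

theorem uSub_conj_x0 (hR : S.Rels) (t : F) {n : G} (hn : n ∈ S.uSub hR) :
    S.x0 t * n * (S.x0 t)⁻¹ ∈ S.uSub hR := by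
  obtain ⟨a, b, rfl⟩ := hn
  refine ⟨a, -(t * a) + b, ?_⟩
  rw [show S.x0 t * (S.x1 a * S.y2 b) * (S.x0 t)⁻¹ =
    (S.x0 t * S.x1 a * (S.x0 t)⁻¹) * (S.x0 t * S.y2 b * (S.x0 t)⁻¹) by group, x1_conj_x0 S hR,
    (hR.x0_y2 t b).eq, mul_inv_cancel_right, y2_add, mul_assoc]

theorem uSub_conj_w (hR : S.Rels) {n : G} (hn : n ∈ S.uSub hR) :
    S.w * n * S.w⁻¹ ∈ S.uSub hR ∧ S.w⁻¹ * n * S.w ∈ S.uSub hR := by
  obtain ⟨a, b, rfl⟩ := hn
  have h1 : ∀ a b, S.w * (S.x1 a * S.y2 b) * S.w⁻¹ = S.x1 b * S.y2 (-a) := fun a b => by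
    rw [show S.w * (S.x1 a * S.y2 b) * S.w⁻¹ = (S.w * S.x1 a * S.w⁻¹) * (S.w * S.y2 b * S.w⁻¹) by group,
      w_conj_x1, w_conj_y2, (hR.x1_y2 b (-a)).eq]
  refine ⟨⟨b, -a, (h1 a b).symm⟩, -b, a, ?_⟩
  rw [show S.x1 a * S.y2 b = S.x1 a * S.y2 (-(-b)) by rw [neg_neg], ← h1 (-b) a]
  group

theorem uSub_conj_φ (hR : S.Rels) (g : SL(2, F)) {n : G} (hn : n ∈ S.uSub hR) :
    S.φ g * n * (S.φ g)⁻¹ ∈ S.uSub hR := by
  have h : S.φ g ∈ Subgroup.normalizer (S.uSub hR : Set G) := by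
    have hx : ∀ t, S.x0 t ∈ Subgroup.normalizer (S.uSub hR : Set G) := fun t => by
      rw [Subgroup.mem_normalizer_iff]
      refine fun n => ⟨S.uSub_conj_x0 hR t, fun hn => ?_⟩
      have := S.uSub_conj_x0 hR (-t) hn
      simpa [x0_neg, mul_assoc] using this
    have hw : S.w ∈ Subgroup.normalizer (S.uSub hR : Set G) := by
      rw [Subgroup.mem_normalizer_iff]
      refine fun n => ⟨fun hn => (S.uSub_conj_w hR hn).1, fun hn => ?_⟩
      have := (S.uSub_conj_w hR hn).2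
      simpa [mul_assoc] using this
    refine S.φ_mem_closure hx (fun t => ?_) g
    rw [← neg_neg t, ← S.w_conj_x0]
    exact mul_mem (mul_mem hw (hx _)) (inv_mem hw)
  exact (Subgroup.mem_normalizer_iff.1 h n).1 hn

theorem φ_conj_T (s : Fˣ) (g : SL(2, F)) : S.T s * S.φ g * (S.T s)⁻¹ ∈ S.φ.range := by
  have hc := S.φ_mem_closure (H := (S.φ.range).comap (MulAut.conj (S.T s)).toMonoidHom)
    (fun t => ⟨xS (((s⁻¹ : Fˣ) : F) * t), (S.T_x0 s t).symm⟩)
    (fun t => ⟨yS ((s : F) * t), (S.T_y0 s t).symm⟩) g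
  exact hc

theorem coe_kSub (hR : S.Rels) :
    (S.kSub hR : Set G) = (S.uSub hR : Set G) * ((S.φ.range : Set G) * (S.T.range : Set G)) := by
  have h1 : S.T.range ≤ Subgroup.normalizer (S.φ.range : Set G) := le_normalizer_of_conj (by
    rintro _ ⟨s, rfl⟩ _ ⟨g, rfl⟩; exact S.φ_conj_T s g)
  have h2 : S.φ.range ⊔ S.T.range ≤ Subgroup.normalizer (S.uSub hR : Set G) := by
    refine sup_le (le_normalizer_of_conj ?_) (le_normalizer_of_conj ?_)
    · rintro _ ⟨g, rfl⟩ n hn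
      exact S.uSub_conj_φ hR g hn
    · rintro _ ⟨s, rfl⟩ _ ⟨a, b, rfl⟩
      refine ⟨(s : F) ^ 2 * a, (s : F) * b, ?_⟩
      rw [← T_x1, ← T_y2]; group
  rw [kSub, Subgroup.coe_mul_of_right_le_normalizer_left _ _ h2,
    Subgroup.coe_mul_of_right_le_normalizer_left _ _ h1]

theorem finite_kSub (hR : S.Rels) : Finite (S.kSub hR) ∧
    Nat.card (S.kSub hR) ≤ Nat.card F ^ 2 * Nat.card SL(2, F) * (Nat.card F - 1) := by
  have hu : (S.uSub hR : Set G) = Set.range fun v : F × F => S.x1 v.1 * S.y2 v.2 :=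
    Set.ext fun g => ⟨fun ⟨a, b, h⟩ => ⟨(a, b), h⟩, fun ⟨v, h⟩ => ⟨v.1, v.2, h⟩⟩
  have f1 : (S.uSub hR : Set G).Finite := hu ▸ Set.finite_range _
  have f2 : (S.φ.range : Set G).Finite := by rw [MonoidHom.coe_range]; exact Set.finite_range _
  have f3 : (S.T.range : Set G).Finite := by rw [MonoidHom.coe_range]; exact Set.finite_range _
  have hk := S.coe_kSub hR
  have hfin : (S.kSub hR : Set G).Finite := hk ▸ f1.mul (f2.mul f3)
  refine ⟨hfin.to_subtype, ?_⟩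
  calc Nat.card (S.kSub hR) = Nat.card (S.kSub hR : Set G) := rfl
    _ ≤ Nat.card (S.uSub hR : Set G) *
        (Nat.card (S.φ.range : Set G) * Nat.card (S.T.range : Set G)) := by
      rw [hk]
      exact Set.natCard_mul_le.trans (Nat.mul_le_mul_left _ Set.natCard_mul_le)
    _ ≤ Nat.card (F × F) * (Nat.card SL(2, F) * Nat.card Fˣ) := by
      refine Nat.mul_le_mul ?_ (Nat.mul_le_mul ?_ ?_)
      · rw [hu]; exact Finite.card_range_le _
      · rw [MonoidHom.coe_range]; exact Finite.card_range_le _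
      · rw [MonoidHom.coe_range]; exact Finite.card_range_le _
    _ = _ := by rw [Nat.card_prod, Nat.card_units]; ring

theorem x0_mem (hR : S.Rels) (t : F) : S.x0 t ∈ S.kSub hR :=
  Subgroup.mem_sup_right (Subgroup.mem_sup_left ⟨_, rfl⟩)

theorem y0_mem (hR : S.Rels) (t : F) : S.y0 t ∈ S.kSub hR :=
  Subgroup.mem_sup_right (Subgroup.mem_sup_left ⟨_, rfl⟩)

theorem w_mem (hR : S.Rels) : S.w ∈ S.kSub hR :=
  Subgroup.mem_sup_right (Subgroup.mem_sup_left ⟨_, rfl⟩)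

theorem D_mem (hR : S.Rels) (s : Fˣ) : S.D s ∈ S.kSub hR :=
  Subgroup.mem_sup_right (Subgroup.mem_sup_left ⟨_, rfl⟩)

theorem T_mem (hR : S.Rels) (s : Fˣ) : S.T s ∈ S.kSub hR :=
  Subgroup.mem_sup_right (Subgroup.mem_sup_right ⟨_, rfl⟩)

theorem x1_mem (hR : S.Rels) (t : F) : S.x1 t ∈ S.kSub hR :=
  Subgroup.mem_sup_left ⟨t, 0, by rw [y2_zero, mul_one]⟩

theorem y2_mem (hR : S.Rels) (t : F) : S.y2 t ∈ S.kSub hR :=
  Subgroup.mem_sup_left ⟨0, t, by rw [x1_zero, one_mul]⟩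

theorem v_eq : S.v = S.x1 1 * S.y1 (-1) * S.x1 1 := by
  rw [v, w, wS_eq, map_mul, map_mul, map_mul, map_mul]; rfl

theorem D_conj_v (s : Fˣ) : S.D s * S.v * (S.D s)⁻¹ = S.T s⁻¹ * S.v := by
  have h : S.D s * S.v * (S.D s)⁻¹ =
      S.x1 ((s⁻¹ : Fˣ) : F) * S.y1 (-(s : F)) * S.x1 ((s⁻¹ : Fˣ) : F) := by
    rw [v_eq, show S.D s * (S.x1 1 * S.y1 (-1) * S.x1 1) * (S.D s)⁻¹ =
      (S.D s * S.x1 1 * (S.D s)⁻¹) * (S.D s * S.y1 (-1) * (S.D s)⁻¹) *
      (S.D s * S.x1 1 * (S.D s)⁻¹) by group, D_x1, D_y1, mul_one, mul_neg_one]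
  have h2 := congrArg S.rot (congrArg S.φ (dS_mul_wS s⁻¹))
  simp only [map_mul, inv_inv] at h2
  rw [h]; exact h2.symm

theorem vinv_D (hR : S.Rels) (s : Fˣ) : S.v⁻¹ * S.D s * S.v ∈ S.kSub hR := by
  have e : S.v⁻¹ * S.D s * S.v = S.T s * S.D s := by
    have h1 := S.D_conj_v s
    have h2 := S.v_T s
    rw [map_inv] at h1 h2
    calc S.v⁻¹ * S.D s * S.v = S.v⁻¹ * (S.D s * S.v * (S.D s)⁻¹) * S.D s := by group
      _ = S.v⁻¹ * ((S.T s)⁻¹ * S.v) * S.D s := by rw [h1]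
      _ = S.v⁻¹ * ((S.v * S.T s * S.v⁻¹) * S.v) * S.D s := by rw [h2]
      _ = S.T s * S.D s := by group
  rw [e]; exact mul_mem (S.T_mem hR s) (S.D_mem hR s)

theorem cinv_D (hR : S.Rels) (s : Fˣ) : S.c⁻¹ * S.D s * S.c ∈ S.kSub hR := by
  have h := S.D_w s⁻¹
  rw [inv_inv] at h
  have e : S.c⁻¹ * S.D s * S.c = S.v⁻¹ * S.D s⁻¹ * S.v := by
    rw [c_eq, ← h]; group
  rw [e]; exact S.vinv_D hR _

theorem vinv_x0 (hR : S.Rels) (t : F) : S.v⁻¹ * S.x0 t * S.v ∈ S.kSub hR := by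
  rw [← neg_neg t, ← v_conj_y2]
  simpa [mul_assoc] using S.y2_mem hR (-t)

/-- The three families of cosets. -/
def cosetMap (hR : S.Rels) : (F × F) ⊕ (F ⊕ Unit) → G ⧸ S.kSub hR
  | .inl v => QuotientGroup.mk (S.y1 v.1 * S.x2 v.2)
  | .inr (.inl a) => QuotientGroup.mk (S.y0 a * S.v)
  | .inr (.inr _) => QuotientGroup.mk S.c

theorem mem_range_of_eq (hR : S.Rels) {g g' k : G} (hk : k ∈ S.kSub hR) (e : g = g' * k)
    (hg : (QuotientGroup.mk g' : G ⧸ S.kSub hR) ∈ Set.range (S.cosetMap hR)) :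
    (QuotientGroup.mk g : G ⧸ S.kSub hR) ∈ Set.range (S.cosetMap hR) := by
  rw [e, QuotientGroup.mk_mul_of_mem g' hk]; exact hg

theorem move_x0 (hR : S.Rels) (t : F) (i : (F × F) ⊕ (F ⊕ Unit)) :
    S.x0 t • S.cosetMap hR i ∈ Set.range (S.cosetMap hR) := by
  rcases i with ⟨a, b⟩ | a | u <;> simp only [cosetMap, MulAction.Quotient.smul_mk, smul_eq_mul]
  · refine S.mem_range_of_eq hR (S.x0_mem hR t) (g' := S.y1 (a + t * b) * S.x2 b) ?_ ⟨.inl (_, _), rfl⟩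
    have e : S.x0 t * S.x2 b = S.y1 (t * b) * S.x2 b * S.x0 t := by
      have h := congrArg Inv.inv (hR.x2_x0 b t)
      rw [← y1_neg, neg_neg, commutatorElement_def] at h
      rw [mul_comm t b, ← h]; group
    rw [← mul_assoc, (hR.x0_y1 t a).eq, mul_assoc, e, y1_add]
    simp only [mul_assoc]
  · by_cases hs : 1 + t * a = 0
    · have ht : t ≠ 0 := fun h => by simp [h] at hs
      let u := Units.mk0 t ht
      have ha : a = -((u⁻¹ : Fˣ) : F) := by
        rw [Units.val_inv_eq_inv_val, Units.val_mk0]; field_simp; linear_combination hs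
      refine S.mem_range_of_eq hR (g' := S.c)
        (mul_mem (S.cinv_D hR u) (S.vinv_x0 hR (-t))) ?_ ⟨.inr (.inr ()), rfl⟩
      have h : S.x0 t * S.y0 a = S.D u * S.w * S.x0 (-t) := by
        have := congrArg S.φ (xS_mul_yS_of_eq u)
        simp only [map_mul, u, Units.val_mk0] at this
        rw [ha]; exact this
      rw [← mul_assoc, h]
      calc S.D u * S.w * S.x0 (-t) * S.v = S.D u * (S.w * S.v) * (S.v⁻¹ * S.x0 (-t) * S.v) := by group
        _ = _ := by rw [← c_eq]; group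
    · let s := Units.mk0 _ hs
      refine S.mem_range_of_eq hR (g' := S.y0 (a / (s : F)) * S.v)
        (mul_mem (S.vinv_D hR s) (S.vinv_x0 hR (t / (s : F)))) ?_ ⟨.inr (.inl _), rfl⟩
      have h := congrArg S.φ (xS_mul_yS t a s rfl)
      simp only [map_mul] at h
      rw [← mul_assoc, show S.x0 t * S.y0 a = S.y0 (a / (s : F)) * S.D s * S.x0 (t / (s : F)) from h]
      group
  · rcases eq_or_ne t 0 with rfl | ht
    · rw [x0_zero, one_mul]; exact ⟨.inr (.inr ()), rfl⟩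
    let u := Units.mk0 t ht
    refine S.mem_range_of_eq hR (g' := S.y0 ((u⁻¹ : Fˣ) : F) * S.v)
      (mul_mem (S.vinv_D hR (-u)) (S.vinv_x0 hR (-((u⁻¹ : Fˣ) : F)))) ?_ ⟨.inr (.inl _), rfl⟩
    have h := congrArg S.φ (xS_mul_wS u)
    simp only [map_mul, u, Units.val_mk0] at h
    have h' : S.x0 t * S.w = S.y0 ((u⁻¹ : Fˣ) : F) * S.D (-u) * S.x0 (-((u⁻¹ : Fˣ) : F)) := h
    rw [c_eq, ← mul_assoc, h']
    group

theorem move_y0 (hR : S.Rels) (t : F) (i : (F × F) ⊕ (F ⊕ Unit)) :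
    S.y0 t • S.cosetMap hR i ∈ Set.range (S.cosetMap hR) := by
  rcases i with ⟨a, b⟩ | a | u <;> simp only [cosetMap, MulAction.Quotient.smul_mk, smul_eq_mul]
  · refine S.mem_range_of_eq hR (S.y0_mem hR t) (g' := S.y1 a * S.x2 (b + a * t)) ?_ ⟨.inl (_, _), rfl⟩
    have h := congrArg Inv.inv (hR.y1_y0 a t)
    rw [← x2_neg, neg_neg, commutatorElement_def] at h
    have e : S.y0 t * S.y1 a = S.x2 (a * t) * S.y1 a * S.y0 t := by rw [← h]; group
    rw [← mul_assoc, e, (hR.x2_y1 _ a).eq, mul_assoc, ← (hR.x2_y0 b t).eq, add_comm b, x2_add]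
    simp only [mul_assoc]
  · exact ⟨.inr (.inl (t + a)), by simp only [cosetMap]; rw [y0_add, mul_assoc]⟩
  · refine S.mem_range_of_eq hR (S.y2_mem hR t) (g' := S.c) ?_ ⟨.inr (.inr ()), rfl⟩
    rw [← S.rot_y2 t, rot_apply]; group

theorem move_v (hR : S.Rels) (i : (F × F) ⊕ (F ⊕ Unit)) :
    S.v • S.cosetMap hR i ∈ Set.range (S.cosetMap hR) := by
  rcases i with ⟨a, b⟩ | a | u <;> simp only [cosetMap, MulAction.Quotient.smul_mk, smul_eq_mul]
  · rcases eq_or_ne a 0 with rfl | ha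
    · refine ⟨.inr (.inl (-b)), ?_⟩
      simp only [cosetMap]
      rw [← S.v_conj_x2 b, y1_zero, one_mul, inv_mul_cancel_right]
    let u := Units.mk0 (-a) (neg_ne_zero.2 ha)
    have hv : S.v * S.y1 a = S.x1 (u : F) * S.v := by
      rw [Units.val_mk0, ← S.v_conj_y1 a, inv_mul_cancel_right]
    have h := congrArg S.rot (congrArg S.φ (xS_mul_wS u))
    simp only [map_mul] at h
    have h' : S.x1 (u : F) * S.v = S.y1 ((u⁻¹ : Fˣ) : F) * S.T (-u) * S.x1 (-((u⁻¹ : Fˣ) : F)) := h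
    set r := -((u⁻¹ : Fˣ) : F) with hr
    have he : S.x1 r * S.x2 b = S.x2 b * (S.y0 (-(r * b)) * S.x1 r) := by
      rw [← mul_assoc, (hR.x2_y0 b _).eq, ← hR.x1_x2 r b, commutatorElement_def]; group
    refine S.mem_range_of_eq hR (g' := S.y1 ((u⁻¹ : Fˣ) : F) * S.x2 ((((-u)⁻¹ : Fˣ) : F) * b))
      (mul_mem (S.T_mem hR (-u)) (mul_mem (S.y0_mem hR (-(r * b))) (S.x1_mem hR r))) ?_
      ⟨.inl (_, _), rfl⟩
    rw [← T_x2, ← mul_assoc, hv, h', mul_assoc _ (S.x1 r), he]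
    group
  · refine S.mem_range_of_eq hR (S.T_mem hR (-1)) (g' := S.y1 0 * S.x2 a) ?_ ⟨.inl (0, a), rfl⟩
    rw [y1_zero, one_mul, ← v_conj_y0, ← v_mul_v]; group
  · refine S.mem_range_of_eq hR (S.w_mem hR) (g' := S.c) ?_ ⟨.inr (.inr ()), rfl⟩
    rw [v, rot_apply]; group

theorem finite_and_card_le (hR : S.Rels)
    (hgen : Subgroup.closure (Set.range S.φ ∪ {S.c}) = ⊤) :
    Finite G ∧ Nat.card G ≤
      (Nat.card F ^ 2 + Nat.card F + 1) *
        (Nat.card F ^ 2 * Nat.card SL(2, F) * (Nat.card F - 1)) := by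
  obtain ⟨hKfin, hK⟩ := S.finite_kSub hR
  have hst : (MulAction.stabilizer G (Set.range (S.cosetMap hR))) = ⊤ := by
    rw [eq_top_iff, ← hgen, Subgroup.closure_le]
    have hx : ∀ t, S.x0 t ∈ MulAction.stabilizer G (Set.range (S.cosetMap hR)) := fun t => by
      rw [MulAction.mem_stabilizer_set' (Set.finite_range _)]
      rintro _ ⟨i, rfl⟩; exact S.move_x0 hR t i
    have hy : ∀ t, S.y0 t ∈ MulAction.stabilizer G (Set.range (S.cosetMap hR)) := fun t => by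
      rw [MulAction.mem_stabilizer_set' (Set.finite_range _)]
      rintro _ ⟨i, rfl⟩; exact S.move_y0 hR t i
    have hv : S.v ∈ MulAction.stabilizer G (Set.range (S.cosetMap hR)) := by
      rw [MulAction.mem_stabilizer_set' (Set.finite_range _)]
      rintro _ ⟨i, rfl⟩; exact S.move_v hR i
    rintro g (⟨g, rfl⟩ | rfl)
    · exact S.φ_mem_closure hx hy g
    · show S.c ∈ _
      rw [c_eq]; exact mul_mem (S.φ_mem_closure hx hy _) hv
  have hsurj : Function.Surjective (S.cosetMap hR) := fun q => by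
    induction q using QuotientGroup.induction_on with
    | H g =>
      have h1 : (QuotientGroup.mk 1 : G ⧸ S.kSub hR) ∈ Set.range (S.cosetMap hR) :=
        ⟨.inl (0, 0), by simp only [cosetMap]; rw [y1_zero, x2_zero, one_mul]⟩
      have hg : g • Set.range (S.cosetMap hR) = Set.range (S.cosetMap hR) :=
        MulAction.mem_stabilizer_iff.1 (hst ▸ Subgroup.mem_top g)
      have h2 := Set.smul_mem_smul_set (a := g) h1
      rw [hg, MulAction.Quotient.smul_mk, smul_eq_mul, mul_one] at h2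
      exact h2
  haveI : Finite (G ⧸ S.kSub hR) := Finite.of_surjective _ hsurj
  have hq : Nat.card (G ⧸ S.kSub hR) ≤ Nat.card F ^ 2 + Nat.card F + 1 := by
    refine (Nat.card_le_card_of_surjective _ hsurj).trans_eq ?_
    rw [Nat.card_sum, Nat.card_sum, Nat.card_prod, Nat.card_unique (α := Unit), pow_two, add_assoc]
  refine ⟨Finite.of_equiv _ (Subgroup.groupEquivQuotientProdSubgroup (s := S.kSub hR)).symm, ?_⟩
  rw [Subgroup.card_eq_card_quotient_mul_card_subgroup (S.kSub hR)]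
  exact Nat.mul_le_mul hq hK

end Setup

end CfsgLib.SL3Pres
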