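import Mathlib.NumberTheory.JacobiSum.Basic
import Mathlib.Analysis.Complex.Polynomial.Basic
import Mathlib.RingTheory.RootsOfUnity.Complex
import Mathlib.FieldTheory.Finite.Basic

/-!
Cubes in a finite field: their additive span, and sums of two cubes that are cubes.
-/

set_option autoImplicit false

namespace CfsgLib.SL3Pres

open Finset

variable {F : Type*} [Field F] [Fintype F]

/-- An additive submonoid with `1`, stable under multiplication by cubes, is everything unless `|F| = 4`. -/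
theorem eq_top_of_mul_cube_mem (hq : Fintype.card F ≠ 4) (P : AddSubmonoid F) (h1 : (1 : F) ∈ P)
    (h3 : ∀ s a : F, s ≠ 0 → a ∈ P → s ^ 3 * a ∈ P) : P = ⊤ := by
  classical
  let K : Submonoid F :=
    { carrier := {x | ∀ a ∈ P, x * a ∈ P}
      one_mem' := fun a ha => by rwa [one_mul]
      mul_mem' := fun {x y} hx hy a ha => by rw [mul_assoc]; exact hx _ (hy _ ha) }
  have hK0 : (0 : F) ∈ K := fun a _ => by rw [zero_mul]; exact P.zero_mem
  have hKadd : ∀ {x y}, x ∈ K → y ∈ K → x + y ∈ K := fun hx hy a ha => by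
    rw [add_mul]; exact P.add_mem (hx a ha) (hy a ha)
  have hKneg : ∀ {x}, x ∈ K → -x ∈ K := fun {x} hx => by
    obtain ⟨p, hp⟩ := CharP.exists F
    have hp0 : p ≠ 0 := (CharP.char_is_prime F p).ne_zero
    obtain ⟨m, rfl⟩ := Nat.exists_eq_succ_of_ne_zero hp0
    have : -x = m • x := by
      rw [neg_eq_iff_add_eq_zero, ← succ_nsmul', nsmul_eq_mul, CharP.cast_eq_zero F (m + 1), zero_mul]
    intro a ha
    rw [this, smul_mul_assoc]
    exact P.nsmul_mem (hx a ha) _
  have hKinv : ∀ {x}, x ∈ K → x⁻¹ ∈ K := fun {x} hx => by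
    rcases eq_or_ne x 0 with rfl | h0
    · rwa [inv_zero]
    have : x⁻¹ = x ^ (Fintype.card F - 2) := by
      refine inv_eq_of_mul_eq_one_right ?_
      rw [← pow_succ', show Fintype.card F - 2 + 1 = Fintype.card F - 1 by
        have := Fintype.one_lt_card (α := F); omega]
      exact FiniteField.pow_card_sub_one_eq_one x h0
    rw [this]; exact K.pow_mem hx _
  by_contra hP
  obtain ⟨z, hz⟩ : ∃ z, z ∉ K := by
    by_contra h
    refine hP (eq_top_iff.2 fun a _ => ?_)
    push Not at h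
    simpa using h a 1 h1
  set S : Finset F := univ.filter (· ∈ K) with hS
  have hmem : ∀ x, x ∈ S ↔ x ∈ K := fun x => by simp [hS]
  have hcard : S.card * S.card ≤ Fintype.card F := by
    rw [← card_product, ← card_univ]
    refine card_le_card_of_injOn (fun v => v.1 + v.2 * z) (fun v _ => mem_univ _) ?_
    rintro ⟨a, b⟩ hab ⟨c, d⟩ hcd h
    simp only [coe_product, Set.mem_prod, mem_coe, hmem] at hab hcd
    rcases eq_or_ne b d with rfl | hne
    · simpa using h
    refine absurd ?_ hz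
    have e : z = (a + -c) * (d + -b)⁻¹ := by
      rw [eq_mul_inv_iff_mul_eq₀ (by rw [← sub_eq_add_neg, sub_ne_zero]; exact hne.symm)]
      simp only at h
      linear_combination -h
    rw [e]
    exact K.mul_mem (hKadd hab.1 (hKneg hcd.1)) (hKinv (hKadd hcd.2 (hKneg hab.2)))
  have hcubes : (univ.filter fun x : F => x ≠ 0).card ≤ 3 * (S.erase 0).card := by
    refine card_le_mul_card_image_of_maps_to (f := fun x => x ^ 3) ?_ 3 fun b _ => ?_
    · intro x hx
      simp only [mem_filter, mem_univ, true_and] at hx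
      exact mem_erase.2 ⟨pow_ne_zero _ hx, (hmem _).2 fun a ha => h3 x a hx ha⟩
    · refine (card_le_card (t := (Polynomial.nthRoots 3 b).toFinset) fun x hx => ?_).trans
        ((Multiset.toFinset_card_le _).trans (Polynomial.card_nthRoots 3 b))
      rw [mem_filter] at hx
      rw [Multiset.mem_toFinset, Polynomial.mem_nthRoots (by norm_num)]
      exact hx.2
  rw [filter_ne', card_erase_of_mem (mem_univ _), card_univ, card_erase_of_mem ((hmem 0).2 hK0)] at hcubes
  have h2 : 2 ≤ S.card :=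
    Finset.one_lt_card.2 ⟨0, (hmem 0).2 hK0, 1, (hmem 1).2 K.one_mem, zero_ne_one⟩
  rcases h2.eq_or_lt with h | h
  · rw [← h] at hcubes hcard
    omega
  · nlinarith [Nat.sub_add_cancel (show 1 ≤ S.card by omega),
      Nat.sub_add_cancel (show 1 ≤ Fintype.card F from Fintype.card_pos)]

/-- For `|F| ≥ 27` odd some sum of two non-zero cubes is a non-zero cube. -/
theorem exists_fermat (h2 : (2 : F) ≠ 0) (hq : 27 ≤ Fintype.card F) :
    ∃ x y z : F, x ≠ 0 ∧ y ≠ 0 ∧ z ≠ 0 ∧ x ^ 3 + y ^ 3 = z ^ 3 := by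
  classical
  by_cases h3 : 3 ∣ Fintype.card F - 1
  swap
  · have hco : (Nat.card Fˣ).Coprime 3 := by
      rw [Nat.card_units, Nat.card_eq_fintype_card, Nat.coprime_comm]
      exact (Nat.Prime.coprime_iff_not_dvd Nat.prime_three).2 h3
    obtain ⟨z, hz⟩ := (powCoprime hco).surjective (Units.mk0 (2 : F) h2)
    refine ⟨1, 1, z, one_ne_zero, one_ne_zero, z.ne_zero, ?_⟩
    have := congrArg Units.val hz
    simp only [powCoprime_apply, Units.val_pow_eq_pow_val, Units.val_mk0] at this
    rw [this]; norm_num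
  obtain ⟨χ, hχ⟩ := MulChar.exists_mulChar_orderOf F h3 (Complex.isPrimitiveRoot_exp 3 (by norm_num))
  have hχ1 : χ ≠ 1 := by rintro rfl; simp at hχ
  have hχi : χ⁻¹ ≠ 1 := inv_ne_one.2 hχ1
  have hχ3 : χ ^ 3 = 1 := hχ ▸ pow_orderOf_eq_one χ
  have hχχ : χ * χ ≠ 1 := by
    rw [← pow_two]
    exact pow_ne_one_of_lt_orderOf (by norm_num) (by omega)
  have hneg : χ (-1) = 1 := by
    rw [show (-1 : F) = (-1) ^ 3 by ring, map_pow, ← MulChar.pow_apply' _ (by norm_num), hχ3]
    exact MulChar.one_apply (isUnit_one.neg)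
  set S : F → ℂ := fun u => (1 : MulChar F ℂ) u + χ u + χ⁻¹ u with hSdef
  have hcube : ∀ u, S u ≠ 0 → ∃ x : F, x ≠ 0 ∧ x ^ 3 = u := by
    intro u hu
    rcases eq_or_ne u 0 with rfl | hu0
    · exact absurd (by simp only [hSdef, MulChar.map_zero, add_zero]) hu
    obtain ⟨g, hg⟩ := IsCyclic.exists_generator (α := Fˣ)
    obtain ⟨k, hk⟩ := mem_powers_iff_mem_zpowers.2 (hg (Units.mk0 u hu0))
    have hku : u = (g : F) ^ k := by
      rw [← Units.val_pow_eq_pow_val, show g ^ k = Units.mk0 u hu0 from hk, Units.val_mk0]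
    have hg3 : (χ g) ^ 3 = 1 := by
      rw [← MulChar.pow_apply' _ (by norm_num), hχ3, MulChar.one_apply g.isUnit]
    have hg1 : χ g ≠ 1 := fun h => hχ1 ((MulChar.eq_one_iff).2 fun a => by
      obtain ⟨n, rfl⟩ := mem_powers_iff_mem_zpowers.2 (hg a)
      rw [Units.val_pow_eq_pow_val, map_pow, h, one_pow])
    have hχu : χ u = 1 := by
      by_contra h
      refine hu ?_
      have h3u : (χ u) ^ 3 = 1 := by rw [hku, ← map_pow, pow_right_comm, map_pow, map_pow, hg3, one_pow]
      have hu' : (χ⁻¹ : MulChar F ℂ) u = χ u ^ 2 := by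
        rw [← MulChar.pow_apply' _ (by norm_num)]
        congr 1
        refine inv_eq_of_mul_eq_one_right ?_
        rw [← pow_succ', hχ3]
      simp only [hSdef]
      rw [hu', MulChar.one_apply hu0.isUnit]
      refine (mul_right_inj' (sub_ne_zero.2 h)).1 ?_
      linear_combination h3u
    have hord : orderOf (χ g) = 3 := orderOf_eq_prime hg3 hg1
    obtain ⟨l, rfl⟩ : 3 ∣ k := by
      rw [← hord]; refine orderOf_dvd_of_pow_eq_one ?_
      rw [← map_pow, ← hku, hχu]
    exact ⟨(g : F) ^ l, pow_ne_zero _ g.ne_zero, by rw [hku, ← pow_mul, mul_comm]⟩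
  obtain ⟨u, hu, hu1⟩ : ∃ u : F, S u ≠ 0 ∧ S (1 - u) ≠ 0 := by
    by_contra hne
    push Not at hne
    have h0 : ∑ u : F, S u * S (1 - u) = 0 := sum_eq_zero fun u _ => by
      rcases eq_or_ne (S u) 0 with h | h
      · rw [h, zero_mul]
      · rw [hne u h, mul_zero]
    have hexp : ∑ u : F, S u * S (1 - u) = jacobiSum (1 : MulChar F ℂ) 1 + jacobiSum 1 χ +
        jacobiSum 1 χ⁻¹ + (jacobiSum χ 1 + jacobiSum χ χ + jacobiSum χ χ⁻¹) +
        (jacobiSum χ⁻¹ 1 + jacobiSum χ⁻¹ χ + jacobiSum χ⁻¹ χ⁻¹) := by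
      simp only [jacobiSum, ← sum_add_distrib]
      exact sum_congr rfl fun u _ => by simp only [hSdef]; ring
    rw [h0, jacobiSum_one_one, jacobiSum_comm χ 1, jacobiSum_comm χ⁻¹ 1, jacobiSum_comm χ⁻¹ χ,
      jacobiSum_one_nontrivial hχ1, jacobiSum_one_nontrivial hχi, jacobiSum_nontrivial_inv hχ1, hneg] at hexp
    have hstar : jacobiSum χ⁻¹ χ⁻¹ = (starRingEnd ℂ) (jacobiSum χ χ) := by
      simp only [jacobiSum, map_sum, map_mul]
      exact sum_congr rfl fun x _ => by
        rw [← MulChar.star_apply', ← MulChar.star_apply']; rfl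
    have hprod := jacobiSum_mul_jacobiSum_inv (F' := ℂ) (χ := χ) (φ := χ) (by
      rw [ringChar.eq_zero]
      exact (CharP.ringChar_ne_zero_of_finite F).symm) hχ1 hχ1 hχχ
    rw [hstar, Complex.mul_conj] at hprod
    have hn : Complex.normSq (jacobiSum χ χ) = Fintype.card F := by exact_mod_cast hprod
    rw [hstar] at hexp
    have hre := congrArg Complex.re hexp
    simp only [Complex.zero_re, Complex.add_re, Complex.sub_re, Complex.neg_re, Complex.one_re,
      Complex.natCast_re, Complex.conj_re, Complex.re_ofNat] at hre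
    have hq' : (27 : ℝ) ≤ Fintype.card F := by exact_mod_cast hq
    rw [Complex.normSq_apply] at hn
    nlinarith [mul_self_nonneg (jacobiSum χ χ).im]
  obtain ⟨x, hx0, hx⟩ := hcube u hu
  obtain ⟨y, hy0, hy⟩ := hcube _ hu1
  exact ⟨x, y, 1, hx0, hy0, one_ne_zero, by rw [hx, hy]; ring⟩

end CfsgLib.SL3Pres
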