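import Cfsg.Agent.Lib.SL3Pres.Setup
import Cfsg.Agent.Lib.SL3Pres.Cubes

/-!
The commutator relations between the six root groups.
-/

set_option autoImplicit false
set_option linter.unusedSectionVars false

namespace CfsgLib.SL3Pres

open CfsgLib.SL2Pres
open scoped MatrixGroups commutatorElement

variable {F : Type*} [Field F] [Finite F]

namespace Setup

variable {ω : Fˣ} {G : Type*} [Group G] (S : Setup ω G)

theorem conj_comm (g a b : G) : g * ⁅a, b⁆ * g⁻¹ = ⁅g * a * g⁻¹, g * b * g⁻¹⁆ := by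
  simp only [commutatorElement_def]; group

theorem conj_commute {g a b : G} (h : Commute a b) : Commute (g * a * g⁻¹) (g * b * g⁻¹) :=
  show g * a * g⁻¹ * (g * b * g⁻¹) = g * b * g⁻¹ * (g * a * g⁻¹) by
    rw [show g * a * g⁻¹ * (g * b * g⁻¹) = g * (a * b) * g⁻¹ by group, h.eq]; group

/-- The scalar `(s³, 1)` on `(x0, x1)`, `s³` on `y2`. -/
def E (s : Fˣ) : G := S.D s * S.D s * S.T s

theorem E_conj (s : Fˣ) (g : G) :
    S.E s * g * (S.E s)⁻¹ =
      S.D s * (S.D s * (S.T s * g * (S.T s)⁻¹) * (S.D s)⁻¹) * (S.D s)⁻¹ := by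
  rw [E]; group

theorem E_x0 (s : Fˣ) (a : F) : S.E s * S.x0 a * (S.E s)⁻¹ = S.x0 ((s : F) ^ 3 * a) := by
  rw [E_conj, T_x0, D_x0, D_x0, Units.val_inv_eq_inv_val]
  congr 1; field_simp

theorem E_x1 (s : Fˣ) (a : F) : S.E s * S.x1 a * (S.E s)⁻¹ = S.x1 a := by
  rw [E_conj, T_x1, D_x1, D_x1, Units.val_inv_eq_inv_val]
  congr 1; field_simp

theorem E_y2 (s : Fˣ) (a : F) : S.E s * S.y2 a * (S.E s)⁻¹ = S.y2 ((s : F) ^ 3 * a) := by
  rw [E_conj, T_y2, D_y2, D_y2]
  congr 1; ring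

/-- `⁅x0 a, x1 b⁆` is the expected element. -/
def Good (a b : F) : Prop := ⁅S.x0 a, S.x1 b⁆ = S.y2 (-(a * b))

theorem good_one : S.Good 1 1 := by
  rw [Good, mul_one]; exact S.hXX

theorem good_cube {a b : F} (h : S.Good a b) (s : Fˣ) : S.Good ((s : F) ^ 3 * a) b := by
  have := congrArg (fun g => S.E s * g * (S.E s)⁻¹) h
  simp only [conj_comm, E_x0, E_x1, E_y2] at this
  rw [Good, this]; congr 1; ring

theorem good_scale {a b : F} (h : S.Good a b) (s : Fˣ) : S.Good ((s : F) * a) ((s : F) * b) := by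
  have := congrArg (fun g => (S.D s * S.T s) * g * (S.D s * S.T s)⁻¹) h
  simp only [conj_comm] at this
  have e : ∀ g : G, S.D s * S.T s * g * (S.D s * S.T s)⁻¹ =
      S.D s * (S.T s * g * (S.T s)⁻¹) * (S.D s)⁻¹ := fun g => by group
  simp only [e, T_x0, T_x1, T_y2, D_x0, D_x1, D_y2] at this
  have e1 : (s : F) ^ 2 * (((s⁻¹ : Fˣ) : F) * a) = s * a := by
    rw [Units.val_inv_eq_inv_val]; field_simp
  have e2 : ((s⁻¹ : Fˣ) : F) * ((s : F) ^ 2 * b) = s * b := by
    rw [Units.val_inv_eq_inv_val]; field_simp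
  rw [e1, e2] at this
  rw [Good, this]; congr 1; ring

/-- Two non-zero cubes with non-zero cube sum give a commuting pair. -/
theorem row_of_fermat {x y z : F} (hx : x ≠ 0) (hy : y ≠ 0) (hz : z ≠ 0)
    (h : x ^ 3 + y ^ 3 = z ^ 3) : Commute (S.x0 1) (S.y2 1) := by
  have g : ∀ {r : F}, r ≠ 0 → S.Good (r ^ 3) 1 := fun {r} hr => by
    have := S.good_cube S.good_one (Units.mk0 r hr)
    rwa [Units.val_mk0, mul_one] at this
  have hs := g hz
  rw [← h, Good, x0_add, mul_one] at hs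
  have hyg := g hy
  have hxg := g hx
  rw [Good, mul_one] at hxg hyg
  have hc : Commute (S.x0 (x ^ 3)) (S.y2 (-(y ^ 3))) := by
    show S.x0 (x ^ 3) * S.y2 (-(y ^ 3)) = S.y2 (-(y ^ 3)) * S.x0 (x ^ 3)
    have e : ⁅S.x0 (x ^ 3) * S.x0 (y ^ 3), S.x1 1⁆ =
        S.x0 (x ^ 3) * ⁅S.x0 (y ^ 3), S.x1 1⁆ * (S.x0 (x ^ 3))⁻¹ * ⁅S.x0 (x ^ 3), S.x1 1⁆ := by
      simp only [commutatorElement_def]; group
    rw [e, hxg, hyg, show -(x ^ 3 + y ^ 3) = -(y ^ 3) + -(x ^ 3) by ring, y2_add] at hs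
    exact mul_inv_eq_iff_eq_mul.1 (mul_right_cancel hs)
  have hc' : Commute (S.x0 (x ^ 3)) (S.y2 (y ^ 3)) := by
    have := hc.inv_right
    rwa [← y2_neg, neg_neg] at this
  -- scale the pair to `(1, 1)`
  let s : Fˣ := (Units.mk0 x hx)⁻¹ * (Units.mk0 y hy) ^ 2
  let t : Fˣ := ((Units.mk0 y hy) ^ 3)⁻¹
  have hd := conj_commute (g := S.D t) (conj_commute (g := S.D s * (S.T s)⁻¹) hc')
  have e : ∀ g : G, S.D s * (S.T s)⁻¹ * g * (S.D s * (S.T s)⁻¹)⁻¹ =
      S.D s * (S.T s⁻¹ * g * (S.T s⁻¹)⁻¹) * (S.D s)⁻¹ := fun g => by rw [map_inv]; group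
  simp only [e, T_x0, T_y2, D_x0, D_y2, inv_inv] at hd
  convert hd using 2
  · simp only [s, t, Units.val_inv_eq_inv_val, Units.val_mul, Units.val_pow_eq_pow_val, Units.val_mk0]
    field_simp
  · simp only [s, t, Units.val_inv_eq_inv_val, Units.val_mul, Units.val_pow_eq_pow_val, Units.val_mk0]
    field_simp

/-- The pairs of `x0` and `y2` commute, given the case `b = 1`. -/
theorem row_all (h : ∀ a, Commute (S.x0 a) (S.y2 1)) (a b : F) : Commute (S.x0 a) (S.y2 b) := by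
  rcases eq_or_ne b 0 with rfl | hb
  · rw [y2_zero]; exact Commute.one_right _
  have := conj_commute (g := S.D (Units.mk0 b hb)) (h (a / b ^ 2))
  rw [D_x0, D_y2, Units.val_mk0, mul_one] at this
  convert this using 2
  field_simp

/-- The commutator formula, given the row and the case `b = 1`. -/
theorem good_all (h : ∀ a, S.Good a 1) (a b : F) : S.Good a b := by
  rcases eq_or_ne b 0 with rfl | hb
  · rw [Good, x1_zero, commutatorElement_one_right, mul_zero, neg_zero, y2_zero]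
  have := S.good_scale (h (a / b)) (Units.mk0 b hb)
  rw [Units.val_mk0, mul_one, mul_div_cancel₀ a hb] at this
  exact this

/-- The set of `a` for which `x0 a` commutes with `y2 1`. -/
def rowSet : AddSubmonoid F where
  carrier := {a | Commute (S.x0 a) (S.y2 1)}
  zero_mem' := by simp [x0_zero]
  add_mem' := fun {a b} (ha : Commute _ _) (hb : Commute _ _) =>
    show Commute _ _ by rw [x0_add]; exact ha.mul_left hb

theorem rowSet_cube {a : F} (s : F) (hs : s ≠ 0) (ha : a ∈ S.rowSet) : s ^ 3 * a ∈ S.rowSet := by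
  have hc : Commute (S.x0 a) (S.y2 1) := ha
  let u := Units.mk0 s hs
  have := conj_commute (g := S.D u * (S.T u)⁻¹) hc
  have e : ∀ g : G, S.D u * (S.T u)⁻¹ * g * (S.D u * (S.T u)⁻¹)⁻¹ =
      S.D u * (S.T u⁻¹ * g * (S.T u⁻¹)⁻¹) * (S.D u)⁻¹ := fun g => by rw [map_inv]; group
  simp only [e, T_x0, T_y2, D_x0, D_y2, inv_inv] at this
  show Commute (S.x0 (s ^ 3 * a)) (S.y2 1)
  convert this using 2
  · simp only [u, Units.val_mk0]; ring
  · simp only [u, Units.val_inv_eq_inv_val, Units.val_mk0, mul_one]; field_simp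

/-- The set of `a` for which `⁅x0 a, x1 1⁆` is as expected, given the row. -/
def goodSet (hrow : ∀ a b, Commute (S.x0 a) (S.y2 b)) : AddSubmonoid F where
  carrier := {a | S.Good a 1}
  zero_mem' := by simp [Good, x0_zero, y2_zero]
  add_mem' := fun {a b} (ha : S.Good a 1) (hb : S.Good b 1) => show S.Good (a + b) 1 by
    rw [Good, x0_add]
    have e : ⁅S.x0 a * S.x0 b, S.x1 1⁆ =
        S.x0 a * ⁅S.x0 b, S.x1 1⁆ * (S.x0 a)⁻¹ * ⁅S.x0 a, S.x1 1⁆ := by
      simp only [commutatorElement_def]; group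
    rw [e, ha, hb, (hrow a _).eq, mul_inv_cancel_right, ← y2_add]
    congr 1; ring

/-- All commutator relations used in the coset enumeration. -/
structure Rels : Prop where
  x0_y2 : ∀ a b, Commute (S.x0 a) (S.y2 b)
  x2_y1 : ∀ a b, Commute (S.x2 a) (S.y1 b)
  x1_y0 : ∀ a b, Commute (S.x1 a) (S.y0 b)
  x1_y2 : ∀ a b, Commute (S.x1 a) (S.y2 b)
  x0_y1 : ∀ a b, Commute (S.x0 a) (S.y1 b)
  x2_y0 : ∀ a b, Commute (S.x2 a) (S.y0 b)
  x0_x1 : ∀ a b, ⁅S.x0 a, S.x1 b⁆ = S.y2 (-(a * b))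
  x1_x2 : ∀ a b, ⁅S.x1 a, S.x2 b⁆ = S.y0 (-(a * b))
  x2_x0 : ∀ a b, ⁅S.x2 a, S.x0 b⁆ = S.y1 (-(a * b))
  y1_y0 : ∀ a b, ⁅S.y1 a, S.y0 b⁆ = S.x2 (-(a * b))

theorem commute_rot {a b : G} (h : Commute a b) : Commute (S.rot a) (S.rot b) :=
  h.map S.rot

theorem rels_of (hrow : ∀ a, Commute (S.x0 a) (S.y2 1)) (hgood : ∀ a, S.Good a 1) : S.Rels := by
  have hr := S.row_all hrow
  have hg := S.good_all hgood
  have hr1 : ∀ a b, Commute (S.x1 a) (S.y0 b) := fun a b => by
    rw [← rot_x0, ← rot_y2]; exact S.commute_rot (hr a b)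
  have hcol : ∀ a b, Commute (S.x1 a) (S.y2 b) := fun a b => by
    have h1 := hg 1 (a + -b)
    have e : ⁅S.x0 1, S.x1 a * S.x1 (-b)⁆ =
        ⁅S.x0 1, S.x1 a⁆ * (S.x1 a * ⁅S.x0 1, S.x1 (-b)⁆ * (S.x1 a)⁻¹) := by
      simp only [commutatorElement_def]; group
    rw [Good, x1_add, e, hg 1 a, hg 1 (-b), one_mul, one_mul, one_mul, neg_neg,
      show -(a + -b) = -a + b by ring, y2_add] at h1
    exact mul_inv_eq_iff_eq_mul.1 (mul_left_cancel h1)
  have hxx1 : ∀ a b, ⁅S.x1 a, S.x2 b⁆ = S.y0 (-(a * b)) := fun a b => by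
    rw [← rot_x0, ← rot_x1, ← map_commutatorElement, hg a b, rot_y2]
  have hyy0 : ∀ a b, ⁅S.y0 a, S.y2 b⁆ = S.x1 (-(a * b)) := fun a b => by
    have := congrArg (fun g => S.w * g * S.w⁻¹) (hg (-a) (-b))
    simp only [conj_comm, w_conj_x0, w_conj_x1, w_conj_y2, neg_neg] at this
    rw [this]; congr 1; ring
  have hcol0 : ∀ a b, Commute (S.x0 a) (S.y1 b) := fun a b => by
    rw [← S.rot_x2, ← rot_y0]
    refine S.commute_rot ?_
    rw [← rot_x1, ← S.rot_y2]
    exact S.commute_rot (hcol a b)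
  refine ⟨hr, fun a b => ?_, hr1, hcol, hcol0, fun a b => ?_, hg, hxx1, fun a b => ?_, fun a b => ?_⟩
  · rw [← rot_x1, ← rot_y0]; exact S.commute_rot (hr1 a b)
  · rw [← rot_x1, ← S.rot_y2]; exact S.commute_rot (hcol a b)
  · rw [← rot_x1, ← S.rot_x2, ← map_commutatorElement, hxx1 a b, rot_y0]
  · rw [← S.rot_y2 b, ← S.rot_y0 a, ← map_commutatorElement, hyy0 a b, rot_x1]

/-- Outside the field of four elements the row relation gives everything. -/
theorem rels_of_row (hq : Nat.card F ≠ 4) (h : Commute (S.x0 1) (S.y2 1)) : S.Rels := by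
  let _ : Fintype F := Fintype.ofFinite F
  rw [Nat.card_eq_fintype_card] at hq
  have hrow : ∀ a, a ∈ S.rowSet := fun a => by
    rw [eq_top_of_mul_cube_mem hq S.rowSet h fun s a hs ha => S.rowSet_cube s hs ha]; trivial
  refine S.rels_of hrow fun a => ?_
  show a ∈ S.goodSet (S.row_all hrow)
  rw [eq_top_of_mul_cube_mem hq (S.goodSet (S.row_all hrow)) S.good_one fun s a hs ha => by
    have := S.good_cube (show S.Good a 1 from ha) (Units.mk0 s hs)
    rwa [Units.val_mk0] at this]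
  trivial

/-- In the field of four elements two further relations give everything. -/
theorem rels_of_four (hq : Nat.card F = 4) (h : Commute (S.x0 1) (S.y2 1))
    (hω : Commute (S.x0 (ω : F)) (S.y2 1)) (hg : S.Good (ω : F) 1) : S.Rels := by
  classical
  let _ : Fintype F := Fintype.ofFinite F
  have hF : ∀ (P : AddSubmonoid F), (1 : F) ∈ P → (ω : F) ∈ P → ∀ a, a ∈ P := by
    intro P h1 hw a
    have hne : (ω : F) ≠ 1 := fun h1' => by
      have hω1 : ω = 1 := Units.ext h1'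
      have h3 : Nat.card Fˣ = 3 := by rw [Nat.card_units, hq]
      have : orderOf ω = 3 := by rw [orderOf_eq_card_of_forall_mem_zpowers S.gen, h3]
      rw [hω1, orderOf_one] at this; omega
    have hsub : ({0, 1, (ω : F), 1 + (ω : F)} : Finset F) ⊆ Finset.univ.filter (· ∈ P) := by
      intro x hx
      simp only [Finset.mem_insert, Finset.mem_singleton] at hx
      rw [Finset.mem_filter]
      refine ⟨Finset.mem_univ _, ?_⟩
      rcases hx with rfl | rfl | rfl | rfl
      exacts [P.zero_mem, h1, hw, P.add_mem h1 hw]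
    have hchar : (2 : F) = 0 := by
      have h4 : ((4 : ℕ) : F) = 0 := by
        rw [← hq, Nat.card_eq_fintype_card]; exact FiniteField.cast_card_eq_zero F
      exact mul_self_eq_zero.1 (by norm_num at h4 ⊢; exact h4)
    have h4 : ({0, 1, (ω : F), 1 + (ω : F)} : Finset F).card = 4 := by
      have hw0 : (ω : F) ≠ 0 := ω.ne_zero
      have h10 : (0 : F) ≠ 1 + ω := fun e => hne (by linear_combination -e - hchar)
      have h11 : (1 : F) ≠ 1 + ω := fun e => hw0 (by linear_combination -e)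
      have h12 : (ω : F) ≠ 1 + ω := fun e => one_ne_zero (α := F) (by linear_combination -e)
      simp [hw0.symm, hne.symm, h10, h11, h12]
    have := Finset.eq_univ_of_card (Finset.univ.filter (· ∈ P)) (le_antisymm (Finset.card_le_univ _) (by
      rw [← Nat.card_eq_fintype_card, hq, ← h4]; exact Finset.card_le_card hsub))
    have ha : a ∈ Finset.univ.filter (· ∈ P) := by rw [this]; exact Finset.mem_univ a
    exact (Finset.mem_filter.1 ha).2
  have hrow : ∀ a, a ∈ S.rowSet := hF _ h hω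
  exact S.rels_of hrow (hF (S.goodSet (S.row_all hrow)) S.good_one hg)

end Setup

end CfsgLib.SL3Pres
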