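import Cfsg.Agent.Lib.SL3Pres.Comm
import Cfsg.Agent.Lib.ClassicalLinear.Generation

/-!
`SL₃(F)` with its upper left copy of `SL₂(F)` and the signed three-cycle satisfies the relations.
-/

set_option autoImplicit false
set_option linter.unusedSectionVars false

namespace CfsgLib.SL3Pres

open CfsgLib.SL2Pres Matrix
open scoped MatrixGroups commutatorElement

variable {F : Type*} [Field F] [Finite F]

/-- The block embedding, as a function. -/
def emb' (g : SL(2, F)) : SL(3, F) :=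
  ⟨!![g.1 0 0, g.1 0 1, 0; g.1 1 0, g.1 1 1, 0; 0, 0, 1], by
    have h := g.2
    rw [Matrix.det_fin_two] at h
    rw [Matrix.det_fin_three]
    simp
    linear_combination h⟩

theorem coe_emb' (g : SL(2, F)) : (emb' g : Matrix (Fin 3) (Fin 3) F) =
    !![g.1 0 0, g.1 0 1, 0; g.1 1 0, g.1 1 1, 0; 0, 0, 1] := rfl

/-- The block embedding. -/
def emb : SL(2, F) →* SL(3, F) :=
  MonoidHom.mk' emb' fun g h => Matrix.SpecialLinearGroup.ext _ _ fun i j => by
    fin_cases i <;> fin_cases j <;>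
      simp [coe_emb', Matrix.SpecialLinearGroup.coe_mul, Matrix.mul_apply, Fin.sum_univ_two, Fin.sum_univ_three]

theorem coe_emb (g : SL(2, F)) : (emb g : Matrix (Fin 3) (Fin 3) F) =
    !![g.1 0 0, g.1 0 1, 0; g.1 1 0, g.1 1 1, 0; 0, 0, 1] := rfl

/-- The signed three-cycle. -/
def cyc : SL(3, F) := ⟨!![0, 0, 1; -1, 0, 0; 0, -1, 0], by simp [Matrix.det_fin_three]⟩

theorem coe_cyc : ((cyc : SL(3, F)) : Matrix (Fin 3) (Fin 3) F) = !![0, 0, 1; -1, 0, 0; 0, -1, 0] := rfl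

/-- An elementary matrix `[[1,0,0],[0,1,a],[0,0,1]]`. -/
def e12 (a : F) : SL(3, F) := ⟨!![1, 0, 0; 0, 1, a; 0, 0, 1], by simp [Matrix.det_fin_three]⟩
/-- An elementary matrix `[[1,0,0],[0,1,0],[0,a,1]]`. -/
def e21 (a : F) : SL(3, F) := ⟨!![1, 0, 0; 0, 1, 0; 0, a, 1], by simp [Matrix.det_fin_three]⟩
/-- An elementary matrix `[[1,0,0],[0,1,0],[a,0,1]]`. -/
def e20 (a : F) : SL(3, F) := ⟨!![1, 0, 0; 0, 1, 0; a, 0, 1], by simp [Matrix.det_fin_three]⟩
/-- An elementary matrix `[[1,0,a],[0,1,0],[0,0,1]]`. -/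
def e02 (a : F) : SL(3, F) := ⟨!![1, 0, a; 0, 1, 0; 0, 0, 1], by simp [Matrix.det_fin_three]⟩

theorem coe_e12 (a : F) : (e12 a : Matrix (Fin 3) (Fin 3) F) = !![1, 0, 0; 0, 1, a; 0, 0, 1] := rfl
theorem coe_e21 (a : F) : (e21 a : Matrix (Fin 3) (Fin 3) F) = !![1, 0, 0; 0, 1, 0; 0, a, 1] := rfl
theorem coe_e20 (a : F) : (e20 a : Matrix (Fin 3) (Fin 3) F) = !![1, 0, 0; 0, 1, 0; a, 0, 1] := rfl
theorem coe_e02 (a : F) : (e02 a : Matrix (Fin 3) (Fin 3) F) = !![1, 0, a; 0, 1, 0; 0, 0, 1] := rfl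

/-- A diagonal matrix `diag(1, s, s⁻¹)`. -/
def d12 (s : Fˣ) : SL(3, F) :=
  ⟨!![1, 0, 0; 0, (s : F), 0; 0, 0, ((s⁻¹ : Fˣ) : F)], by simp [Matrix.det_fin_three]⟩

theorem coe_d12 (s : Fˣ) : (d12 s : Matrix (Fin 3) (Fin 3) F) =
    !![1, 0, 0; 0, (s : F), 0; 0, 0, ((s⁻¹ : Fˣ) : F)] := rfl

local macro "sl3ext" : tactic =>
  `(tactic| (apply Matrix.SpecialLinearGroup.ext; intro i j; fin_cases i <;> fin_cases j <;>
    simp [coe_emb, coe_cyc, coe_d12, coe_e12, coe_e21, coe_e20, coe_e02, coe_xS, coe_yS, coe_wS, coe_dS,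
      Units.val_inv_eq_inv_val, Matrix.SpecialLinearGroup.coe_mul, Matrix.mul_apply, Fin.sum_univ_two,
      Fin.sum_univ_three] <;> (try field_simp) <;> (try ring)))

theorem cyc_emb_xS (a : F) : cyc * emb (xS a) * (cyc : SL(3, F))⁻¹ = e12 a := by
  rw [mul_inv_eq_iff_eq_mul]; sl3ext

theorem cyc_emb_yS (a : F) : cyc * emb (yS a) * (cyc : SL(3, F))⁻¹ = e21 a := by
  rw [mul_inv_eq_iff_eq_mul]; sl3ext

theorem cyc_e12 (a : F) : cyc * e12 a * (cyc : SL(3, F))⁻¹ = e20 (-a) := by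
  rw [mul_inv_eq_iff_eq_mul]; sl3ext

theorem cyc_e21 (a : F) : cyc * e21 a * (cyc : SL(3, F))⁻¹ = e02 (-a) := by
  rw [mul_inv_eq_iff_eq_mul]; sl3ext

theorem cyc_cube : cyc * cyc * (cyc : SL(3, F)) = 1 := by sl3ext

theorem cyc_emb_wS : emb wS * cyc * emb (wS : SL(2, F)) = cyc * cyc := by sl3ext

theorem emb_xS_e02 (a b : F) : Commute (emb (xS a)) (e02 b) := by
  show emb (xS a) * e02 b = e02 b * emb (xS a)
  sl3ext

theorem emb_xS_e12 (a b : F) : ⁅emb (xS a), e12 b⁆ = e02 (a * b) := by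
  have h : emb (xS a) * e12 b = e02 (a * b) * e12 b * emb (xS a) := by sl3ext
  rw [commutatorElement_def, h]; group

theorem commute_emb_dS (s : Fˣ) :
    Commute (emb (dS s)) (cyc * emb (dS s) * (cyc : SL(3, F))⁻¹) := by
  have h : cyc * emb (dS s) * (cyc : SL(3, F))⁻¹ = d12 s := by
    rw [mul_inv_eq_iff_eq_mul]; sl3ext
  rw [h]
  show _ * _ = _ * _
  sl3ext

theorem dS_e12 (s : Fˣ) :
    emb (dS s) * e12 1 * (emb (dS s))⁻¹ = e12 ((s⁻¹ : Fˣ) : F) := by
  rw [mul_inv_eq_iff_eq_mul]; sl3ext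

theorem dS_e21 (s : Fˣ) : emb (dS s) * e21 1 * (emb (dS s))⁻¹ = e21 (s : F) := by
  rw [mul_inv_eq_iff_eq_mul]; sl3ext

/-- The setting of the presentation, inside `SL₃(F)`. -/
def modelSetup {ω : Fˣ} (hω : ∀ x : Fˣ, x ∈ Subgroup.zpowers ω) : Setup ω SL(3, F) where
  gen := hω
  φ := emb
  c := cyc
  c_cube := cyc_cube
  wcw := cyc_emb_wS
  torus := commute_emb_dS ω
  hX := by rw [cyc_emb_xS, cyc_emb_xS]; exact dS_e12 ω
  hY := by rw [cyc_emb_yS, cyc_emb_yS]; exact dS_e21 ω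
  hXX := by rw [cyc_emb_xS, emb_xS_e12, cyc_emb_yS, cyc_e21, neg_neg, one_mul]

variable {ω : Fˣ} (hω : ∀ x : Fˣ, x ∈ Subgroup.zpowers ω)

theorem model_y2 (a : F) : (modelSetup hω).y2 a = e02 (-a) := by
  show cyc * (cyc * emb (yS a) * cyc⁻¹) * cyc⁻¹ = _
  rw [cyc_emb_yS, cyc_e21]

theorem model_x1 (a : F) : (modelSetup hω).x1 a = e12 a := cyc_emb_xS a

theorem model_row (a b : F) : Commute ((modelSetup hω).x0 a) ((modelSetup hω).y2 b) := by
  rw [model_y2]; exact emb_xS_e02 a _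

theorem model_good (a b : F) : (modelSetup hω).Good a b := by
  rw [Setup.Good, model_x1, model_y2, neg_neg]; exact emb_xS_e12 a b

theorem closure_emb_cyc : Subgroup.closure (Set.range (emb : SL(2, F) →* SL(3, F)) ∪ {cyc}) = ⊤ := by
  refine ClassicalLinear.eq_top_of_transvection_mem fun i j hij a => ?_
  set H := Subgroup.closure (Set.range (emb : SL(2, F) →* SL(3, F)) ∪ {cyc})
  have hm : ∀ g, emb g ∈ H := fun g => Subgroup.subset_closure (Or.inl ⟨g, rfl⟩)
  have hc : ∀ {g}, g ∈ H → cyc * g * cyc⁻¹ ∈ H := fun {g} hg =>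
    mul_mem (mul_mem (Subgroup.subset_closure (Or.inr rfl)) hg)
      (inv_mem (Subgroup.subset_closure (Or.inr rfl)))
  have h12 : e12 a ∈ H := cyc_emb_xS a ▸ hc (hm _)
  have h21 : e21 a ∈ H := cyc_emb_yS a ▸ hc (hm _)
  have h20 : e20 a ∈ H := by
    have h := hc (hc (hm (xS (-a))))
    rwa [cyc_emb_xS, cyc_e12, neg_neg] at h
  have h02 : e02 a ∈ H := by
    have h := hc (hc (hm (yS (-a))))
    rwa [cyc_emb_yS, cyc_e21, neg_neg] at h
  have hcoe : ∀ {g : SL(3, F)}, g ∈ H → (g : Matrix (Fin 3) (Fin 3) F) = Matrix.transvection i j a →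
      SpecialLinearGroup.transvection hij a ∈ H := fun {g} hg h => by
    rwa [show SpecialLinearGroup.transvection hij a = g from Subtype.ext h.symm]
  fin_cases i <;> fin_cases j <;>
    first
      | exact absurd rfl hij
      | (refine hcoe (hm (xS a)) ?_
         ext k l; fin_cases k <;> fin_cases l <;>
           simp [coe_emb, coe_xS, Matrix.transvection, Matrix.single]; done)
      | (refine hcoe (hm (yS a)) ?_
         ext k l; fin_cases k <;> fin_cases l <;>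
           simp [coe_emb, coe_yS, Matrix.transvection, Matrix.single]; done)
      | (refine hcoe h12 ?_
         ext k l; fin_cases k <;> fin_cases l <;> simp [coe_e12, Matrix.transvection, Matrix.single]; done)
      | (refine hcoe h21 ?_
         ext k l; fin_cases k <;> fin_cases l <;> simp [coe_e21, Matrix.transvection, Matrix.single]; done)
      | (refine hcoe h20 ?_
         ext k l; fin_cases k <;> fin_cases l <;> simp [coe_e20, Matrix.transvection, Matrix.single]; done)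
      | (refine hcoe h02 ?_
         ext k l; fin_cases k <;> fin_cases l <;> simp [coe_e02, Matrix.transvection, Matrix.single]; done)

end CfsgLib.SL3Pres
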