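import Cfsg.Agent.Lib.SL3Pres.Relators
import Cfsg.Agent.Lib.SL3Pres.Bound
import Cfsg.Agent.Lib.SL3Pres.Model

/-!
`SL₃(F)` on four generators and at most fourteen relations.
-/

set_option autoImplicit false
set_option linter.unusedSectionVars false

namespace CfsgLib.SL3Pres

open Polynomial CfsgLib.SL2Pres
open scoped MatrixGroups commutatorElement

universe u

variable {F : Type u} [Field F] [Finite F] {p : ℕ} [Fact p.Prime] [Algebra (ZMod p) F]

local notation "gU" => (FreeGroup.of (0 : Fin 4) : FreeGroup (Fin 4))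
local notation "gH" => (FreeGroup.of (1 : Fin 4) : FreeGroup (Fin 4))
local notation "gW" => (FreeGroup.of (2 : Fin 4) : FreeGroup (Fin 4))
local notation "gC" => (FreeGroup.of (3 : Fin 4) : FreeGroup (Fin 4))

/-- The generators of `SL₃(F)`. -/
def f3 (ω : Fˣ) : Fin 4 → SL(3, F) := ![emb (xS 1), emb (dS ω), emb wS, cyc]

/-- The six relators linking `SL₂(F)` and the element of order three. -/
noncomputable def linkRels (Pi Po : (ZMod p)[X]) : List (FreeGroup (Fin 4)) :=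
  [gC * gC * gC, gW * gC * gW * (gC * gC)⁻¹,
    gH * (gC * gH * gC⁻¹) * (gC * gH * gC⁻¹ * gH)⁻¹,
    gH * (gC * gU * gC⁻¹) * gH⁻¹ * (gC * pval gU gH 1 Pi * gC⁻¹)⁻¹,
    gH * (gC * (gW⁻¹ * gU⁻¹ * gW) * gC⁻¹) * gH⁻¹ * (gC * (gW⁻¹ * (pval gU gH 1 Po)⁻¹ * gW) * gC⁻¹)⁻¹,
    ⁅gU, gC * gU * gC⁻¹⁆ * (gC * (gC * (gW⁻¹ * gU * gW) * gC⁻¹) * gC⁻¹)⁻¹]

/-- The relator saying that `x0 1` and `y2 1` commute. -/
def rowRel : FreeGroup (Fin 4) :=
  gU * (gC * (gC * (gW⁻¹ * gU⁻¹ * gW) * gC⁻¹) * gC⁻¹) *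
    (gC * (gC * (gW⁻¹ * gU⁻¹ * gW) * gC⁻¹) * gC⁻¹ * gU)⁻¹

/-- Two relators used only for the field of four elements. -/
noncomputable def fourRels (Po : (ZMod p)[X]) : List (FreeGroup (Fin 4)) :=
  [pval gU gH 1 Po * (gC * (gC * (gW⁻¹ * gU⁻¹ * gW) * gC⁻¹) * gC⁻¹) *
    (gC * (gC * (gW⁻¹ * gU⁻¹ * gW) * gC⁻¹) * gC⁻¹ * pval gU gH 1 Po)⁻¹,
   ⁅pval gU gH 1 Po, gC * gU * gC⁻¹⁆ * (gC * (gC * (gW⁻¹ * pval gU gH 1 Po * gW) * gC⁻¹) * gC⁻¹)⁻¹]

variable {ω : Fˣ} {G : Type*} [Group G]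

/-- What the generators are in terms of the setting. -/
structure Gens (S : Setup ω G) (f : Fin 4 → G) : Prop where
  u : f 0 = S.φ (xS 1)
  h : f 1 = S.φ (dS ω)
  w : f 2 = S.φ wS
  c : f 3 = S.c

theorem winv_xS (φ : SL(2, F) →* G) (t : F) : (φ wS)⁻¹ * (φ (xS t))⁻¹ * φ wS = φ (yS t) := by
  rw [← map_inv φ, ← map_inv φ, ← map_mul, ← map_mul, ← xS_neg, wS_inv_conj_xS, neg_neg]

theorem winv_xS' (φ : SL(2, F) →* G) (t : F) : (φ wS)⁻¹ * φ (xS t) * φ wS = φ (yS (-t)) := by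
  rw [← map_inv φ, ← map_mul, ← map_mul, wS_inv_conj_xS]

theorem pval_φ (φ : SL(2, F) →* G) (P : (ZMod p)[X]) :
    pval (φ (xS 1)) (φ (dS ω)) 1 P = φ (xS (aeval ((ω : F) ^ 2) P)) := by
  rw [← map_pval, (isUnip_SL ω).pval_eq, pow_one]

theorem lift_rowRel {S : Setup ω G} {f : Fin 4 → G} (hf : Gens S f) :
    FreeGroup.lift f rowRel = 1 ↔ Commute (S.x0 1) (S.y2 1) := by
  simp only [rowRel, map_mul, map_inv, FreeGroup.lift_apply_of, hf.u, hf.w, hf.c, winv_xS,
    mul_inv_eq_one]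
  rfl

theorem lift_fourRels {S : Setup ω G} {f : Fin 4 → G} (hf : Gens S f) {Po : (ZMod p)[X]}
    (hPo : aeval ((ω : F) ^ 2) Po = (ω : F)) :
    (∀ r ∈ fourRels Po, FreeGroup.lift f r = 1) ↔
      Commute (S.x0 (ω : F)) (S.y2 1) ∧ S.Good (ω : F) 1 := by
  simp only [fourRels, List.forall_mem_cons, List.not_mem_nil, false_implies, implies_true, and_true,
    map_mul, map_inv, map_commutatorElement, map_pval, FreeGroup.lift_apply_of, hf.u, hf.h, hf.w, hf.c,
    pval_φ, hPo, winv_xS, winv_xS', mul_inv_eq_one, Setup.Good, mul_one]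
  rfl

theorem model_gens (hω : ∀ x : Fˣ, x ∈ Subgroup.zpowers ω) : Gens (modelSetup hω) (f3 ω) :=
  ⟨rfl, rfl, rfl, rfl⟩

theorem lift_map_castSucc (f : Fin 4 → G) (r : FreeGroup (Fin 3)) :
    FreeGroup.lift f (FreeGroup.map Fin.castSucc r) = FreeGroup.lift (f ∘ Fin.castSucc) r := by
  have h : (FreeGroup.lift f).comp (FreeGroup.map (Fin.castSucc : Fin 3 → Fin 4)) =
      FreeGroup.lift (f ∘ Fin.castSucc) := FreeGroup.ext_hom _ _ fun a => by simp
  exact DFunLike.congr_fun h r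

theorem lift_linkRels_model (hω : ∀ x : Fˣ, x ∈ Subgroup.zpowers ω) {Pi Po : (ZMod p)[X]}
    (hPi : aeval ((ω : F) ^ 2) Pi = ((ω⁻¹ : Fˣ) : F)) (hPo : aeval ((ω : F) ^ 2) Po = (ω : F)) :
    ∀ r ∈ linkRels Pi Po, FreeGroup.lift (f3 ω) r = 1 := by
  have hf := model_gens hω
  set S := modelSetup hω
  simp only [linkRels, List.forall_mem_cons, List.not_mem_nil, false_implies, implies_true, and_true,
    map_mul, map_inv, map_commutatorElement, map_pval, FreeGroup.lift_apply_of, hf.u, hf.h, hf.w, hf.c,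
    pval_φ, hPi, hPo, winv_xS, winv_xS', mul_inv_eq_one]
  exact ⟨S.c_cube, S.wcw, S.torus.eq, S.hX, S.hY, S.hXX⟩

/-- The order of `SL₃(F)` is the bound of the coset enumeration. -/
theorem card_SL_three :
    Nat.card SL(3, F) = (Nat.card F ^ 2 + Nat.card F + 1) *
      (Nat.card F ^ 2 * Nat.card SL(2, F) * (Nat.card F - 1)) := by
  let _ : Fintype F := Fintype.ofFinite F
  rw [Nat.card_eq_fintype_card (α := F), ClassicalLinear.card_SL_two rfl]
  have h := ClassicalLinear.card_SL (ι := Fin 3) (F := F)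
  have h1 : 1 < Fintype.card F := Fintype.one_lt_card
  generalize Fintype.card F = q at *
  obtain ⟨m, rfl⟩ : ∃ m, q = m + 2 := ⟨q - 2, by omega⟩
  rw [Fin.prod_univ_eq_prod_range (fun i => (m + 2) ^ Fintype.card (Fin 3) - (m + 2) ^ i), Fintype.card_fin,
    Finset.prod_range_succ, Finset.prod_range_succ, Finset.prod_range_one, pow_zero, pow_one] at h
  have e2 : (m + 2) ^ 2 - 1 = (m + 1) * (m + 3) := by
    rw [show (m + 2) ^ 2 = (m + 1) * (m + 3) + 1 by ring, Nat.add_sub_cancel]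
  have e0 : (m + 2) ^ 3 - 1 = (m + 1) * ((m + 2) ^ 2 + (m + 2) + 1) := by
    rw [show (m + 2) ^ 3 = (m + 1) * ((m + 2) ^ 2 + (m + 2) + 1) + 1 by ring, Nat.add_sub_cancel]
  have e1 : (m + 2) ^ 3 - (m + 2) = (m + 2) * ((m + 1) * (m + 3)) := by
    rw [show (m + 2) ^ 3 = (m + 2) * ((m + 1) * (m + 3)) + (m + 2) by ring, Nat.add_sub_cancel]
  have e3 : (m + 2) ^ 3 - (m + 2) ^ 2 = (m + 2) ^ 2 * (m + 1) := by
    rw [show (m + 2) ^ 3 = (m + 2) ^ 2 * (m + 1) + (m + 2) ^ 2 by ring, Nat.add_sub_cancel]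
  rw [e0, e1, e3, show m + 2 - 1 = m + 1 by omega] at h
  rw [e2, show m + 2 - 1 = m + 1 by omega]
  refine Nat.eq_of_mul_eq_mul_left (show 0 < m + 1 by omega) (h.trans ?_)
  ring

/-- Relators for `SL₂`, the linking relators, and further ones that give all relations. -/
theorem presentation_of (hω : ∀ x : Fˣ, x ∈ Subgroup.zpowers ω) {m : ℕ} (h2 : IsRelators ω m)
    {Pi Po : (ZMod p)[X]} (hPi : aeval ((ω : F) ^ 2) Pi = ((ω⁻¹ : Fˣ) : F))
    (hPo : aeval ((ω : F) ^ 2) Po = (ω : F)) (extra : List (FreeGroup (Fin 4)))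
    (hextra : ∀ r ∈ extra, FreeGroup.lift (f3 ω) r = 1)
    (hrels : ∀ (H : Type) [Group H] (S : Setup ω H) (f : Fin 4 → H), Gens S f →
      (∀ r ∈ extra, FreeGroup.lift f r = 1) → S.Rels)
    (hm : m + 6 + extra.length ≤ 14) :
    ∃ rels : Finset (FreeGroup (Fin 4)), rels.card ≤ 14 ∧
      Nonempty (PresentedGroup (↑rels : Set (FreeGroup (Fin 4))) ≃* SL(3, F)) := by
  classical
  obtain ⟨R, hRm, hRS, hRφ⟩ := h2
  set L := R.map (FreeGroup.map Fin.castSucc) ++ linkRels Pi Po ++ extra with hL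
  refine ⟨L.toFinset, (List.toFinset_card_le _).trans (by simp [hL, linkRels]; omega), ?_⟩
  rw [List.coe_toFinset]
  have hf3 : f3 ω ∘ Fin.castSucc = (emb : SL(2, F) →* SL(3, F)) ∘ fS ω := by
    funext i; fin_cases i <;> rfl
  have hrel : ∀ r ∈ {r | r ∈ L}, FreeGroup.lift (f3 ω) r = 1 := by
    intro r hr
    simp only [Set.mem_ofPred_eq, hL, List.mem_append, List.mem_map] at hr
    rcases hr with (⟨r, hr, rfl⟩ | hr) | hr
    · rw [lift_map_castSucc, hf3]
      have h : FreeGroup.lift ((emb : SL(2, F) →* SL(3, F)) ∘ fS ω) =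
          (emb : SL(2, F) →* SL(3, F)).comp (FreeGroup.lift (fS ω)) :=
        FreeGroup.ext_hom _ _ fun a => by simp
      rw [h, MonoidHom.comp_apply, hRS r hr, map_one]
    · exact lift_linkRels_model hω hPi hPo r hr
    · exact hextra r hr
  set f := PresentedGroup.of (rels := {r | r ∈ L}) with hfdef
  have hl : ∀ r ∈ L, FreeGroup.lift f r = 1 := fun r hr => lift_of_eq_one hr
  obtain ⟨φ, hφ⟩ := hRφ _ (f ∘ Fin.castSucc) fun r hr => by
    rw [← lift_map_castSucc]
    exact hl _ (by simp only [hL, List.mem_append, List.mem_map]; exact Or.inl (Or.inl ⟨r, hr, rfl⟩))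
  have hu : f 0 = φ (xS 1) := (hφ 0).symm
  have hh : f 1 = φ (dS ω) := (hφ 1).symm
  have hw : f 2 = φ wS := (hφ 2).symm
  have hlink : ∀ r ∈ linkRels Pi Po, FreeGroup.lift f r = 1 := fun r hr =>
    hl r (by simp [hL, hr])
  simp only [linkRels, List.forall_mem_cons, List.not_mem_nil, false_implies, implies_true, and_true,
    map_mul, map_inv, map_commutatorElement, map_pval, FreeGroup.lift_apply_of, hu, hh, hw, pval_φ,
    hPi, hPo, winv_xS, winv_xS', mul_inv_eq_one] at hlink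
  obtain ⟨h1, h2, h3, h4, h5, h6⟩ := hlink
  let S : Setup ω (PresentedGroup {r | r ∈ L}) := ⟨hω, φ, f 3, h1, h2, h3, h4, h5, h6⟩
  have hgens : Gens S f := ⟨hu, hh, hw, rfl⟩
  have hR : S.Rels := hrels _ S f hgens fun r hr => hl r (by simp [hL, hr])
  have hgen : Subgroup.closure (Set.range S.φ ∪ {S.c}) = ⊤ := by
    rw [eq_top_iff, ← PresentedGroup.closure_range_of, Subgroup.closure_le]
    rintro _ ⟨i, rfl⟩
    refine Subgroup.subset_closure ?_
    fin_cases i
    exacts [Or.inl ⟨_, hu.symm⟩, Or.inl ⟨_, hh.symm⟩, Or.inl ⟨_, hw.symm⟩, Or.inr rfl]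
  obtain ⟨hfin, hcard⟩ := S.finite_and_card_le hR hgen
  rw [← card_SL_three] at hcard
  let ψ := PresentedGroup.toGroup (rels := {r | r ∈ L}) (f := f3 ω) hrel
  have hψ : ∀ i, ψ (f i) = f3 ω i := fun i => PresentedGroup.toGroup.of (h := hrel)
  have hsurj : Function.Surjective ψ := by
    rw [← MonoidHom.range_eq_top, eq_top_iff, ← closure_emb_cyc (F := F), Subgroup.closure_le]
    rintro g (⟨s, rfl⟩ | rfl)
    · have htop : Subgroup.closure (Set.range (fS ω)) = ⊤ := closure_fS p hω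
      have : s ∈ ψ.range.comap emb := by
        refine (htop.ge.trans ((Subgroup.closure_le _).2 ?_)) (Subgroup.mem_top s)
        rintro _ ⟨i, rfl⟩
        exact ⟨f i.castSucc, (hψ _).trans (congrFun hf3 i)⟩
      exact this
    · exact ⟨f 3, hψ 3⟩
  exact ⟨MulEquiv.ofBijective ψ (hsurj.bijective_of_nat_card_le hcard)⟩

/-- `SL₃(F)` has four generators and at most fourteen relations. -/
theorem presentation : ∃ rels : Finset (FreeGroup (Fin 4)), rels.card ≤ 14 ∧
    Nonempty (PresentedGroup (↑rels : Set (FreeGroup (Fin 4))) ≃* SL(3, F)) := by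
  obtain ⟨p, hp⟩ := CharP.exists F
  have : Fact p.Prime := ⟨CharP.char_is_prime F p⟩
  let _ : Algebra (ZMod p) F := ZMod.algebra F p
  obtain ⟨ω, hω⟩ := IsCyclic.exists_generator (α := Fˣ)
  obtain ⟨Pi, hPi⟩ := aeval_sq_surjective (p := p) hω ((ω⁻¹ : Fˣ) : F)
  obtain ⟨Po, hPo⟩ := aeval_sq_surjective (p := p) hω (ω : F)
  have hrow : ∀ r ∈ [rowRel], FreeGroup.lift (f3 ω) r = 1 := by
    simp only [List.forall_mem_cons, List.not_mem_nil, false_implies, implies_true, and_true]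
    exact (lift_rowRel (model_gens hω)).2 (model_row hω 1 1)
  rcases eq_or_ne p 2 with rfl | hp2
  · by_cases hq : Nat.card F = 4
    · refine presentation_of hω (relators_even hω) hPi hPo (rowRel :: fourRels Po) ?_ ?_
        (by simp [fourRels])
      · rw [List.forall_mem_cons]
        exact ⟨hrow _ (by simp), (lift_fourRels (model_gens hω) hPo).2
          ⟨model_row hω _ _, model_good hω _ _⟩⟩
      · intro H _ S f hf hex
        rw [List.forall_mem_cons, lift_rowRel hf, lift_fourRels hf hPo] at hex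
        exact S.rels_of_four hq hex.1 hex.2.1 hex.2.2
    · refine presentation_of hω (relators_even hω) hPi hPo [rowRel] hrow ?_ (by simp)
      intro H _ S f hf hex
      exact S.rels_of_row hq ((lift_rowRel hf).1 (hex _ (by simp)))
  have hq4 : Nat.card F ≠ 4 := by
    intro h
    have hc : ((4 : ℕ) : F) = 0 := by
      let _ : Fintype F := Fintype.ofFinite F
      rw [← h, Nat.card_eq_fintype_card]; exact FiniteField.cast_card_eq_zero F
    exact hp2 ((Nat.prime_dvd_prime_iff_eq Fact.out Nat.prime_two).1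
      ((Fact.out : p.Prime).dvd_of_dvd_pow (n := 2) ((CharP.cast_eq_zero_iff F p 4).1 hc)))
  by_cases hn : Module.finrank (ZMod p) F < 3
  · refine presentation_of hω (relators_odd_small hp2 hω hn) hPi hPo [rowRel] hrow ?_ (by simp)
    intro H _ S f hf hex
    exact S.rels_of_row hq4 ((lift_rowRel hf).1 (hex _ (by simp)))
  · refine presentation_of hω (relators_odd hp2 hω) hPi hPo [] (by simp) ?_ (by simp)
    intro H _ S f _ _
    let _ : Fintype F := Fintype.ofFinite F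
    have h27 : 27 ≤ Fintype.card F := by
      haveI : Module.Finite (ZMod p) F := Module.Finite.of_finite
      rw [← Nat.card_eq_fintype_card, Module.natCard_eq_pow_finrank (K := ZMod p), Nat.card_zmod]
      have h3 : 3 ≤ p := by have := (Fact.out : p.Prime).two_le; omega
      calc 27 = 3 ^ 3 := by norm_num
        _ ≤ p ^ 3 := Nat.pow_le_pow_left h3 3
        _ ≤ _ := Nat.pow_le_pow_right (by omega) (by omega)
    have h2 : (2 : F) ≠ 0 := fun h => hp2 ((Nat.prime_dvd_prime_iff_eq Fact.out Nat.prime_two).1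
      ((CharP.cast_eq_zero_iff F p 2).1 (by exact_mod_cast h)))
    obtain ⟨x, y, z, hx, hy, hz, h⟩ := exists_fermat h2 h27
    exact S.rels_of_row hq4 (S.row_of_fermat hx hy hz h)

end CfsgLib.SL3Pres
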