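import Cfsg.Agent.Lib.SL2Pres.Rels

/-!
The relators of the presentations of `SL₂(F)`, with the homomorphism out of `SL₂(F)` that they give
for a triple of elements satisfying them. The relator lists and the argument are those of `Lib/SL2Pres`.
-/

set_option autoImplicit false
set_option linter.unusedSectionVars false

namespace CfsgLib.SL3Pres

open Polynomial CfsgLib.SL2Pres
open scoped MatrixGroups

universe u

variable {F : Type u} [Field F] [Finite F] {p : ℕ} [Fact p.Prime] [Algebra (ZMod p) F]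

local notation "gU" => (FreeGroup.of (0 : Fin 3) : FreeGroup (Fin 3))
local notation "gH" => (FreeGroup.of (1 : Fin 3) : FreeGroup (Fin 3))
local notation "gW" => (FreeGroup.of (2 : Fin 3) : FreeGroup (Fin 3))

/-- At most `m` relators, true for the standard generators, presenting `SL₂(F)`. -/
def IsRelators (ω : Fˣ) (m : ℕ) : Prop :=
  ∃ R : List (FreeGroup (Fin 3)), R.length ≤ m ∧ (∀ r ∈ R, FreeGroup.lift (fS ω) r = 1) ∧
    ∀ (G : Type) [Group G] (f : Fin 3 → G), (∀ r ∈ R, FreeGroup.lift f r = 1) →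
      ∃ φ : SL(2, F) →* G, ∀ i, φ (fS ω i) = f i

theorem isRelators_of_bound {ω : Fˣ} {m : ℕ} (rels : List (FreeGroup (Fin 3)))
    (hrel : ∀ r ∈ rels, FreeGroup.lift (fS ω) r = 1) (hgen : Subgroup.closure (Set.range (fS ω)) = ⊤)
    (hcard : Finite (PresentedGroup {r | r ∈ rels}) ∧
      Nat.card (PresentedGroup {r | r ∈ rels}) ≤ Nat.card SL(2, F))
    (hm : rels.length ≤ m) : IsRelators ω m := by
  classical
  haveI := hcard.1
  haveI : Finite SL(2, F) := inferInstance
  let ψ := PresentedGroup.toGroup (rels := {r | r ∈ rels}) (f := fS ω) hrel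
  have hψ : ∀ i, ψ (PresentedGroup.of i) = fS ω i := fun i => PresentedGroup.toGroup.of (h := hrel)
  have hsurj : Function.Surjective ψ := by
    rw [← MonoidHom.range_eq_top, eq_top_iff, ← hgen, Subgroup.closure_le]
    rintro x ⟨i, rfl⟩
    exact ⟨PresentedGroup.of i, hψ i⟩
  have hbij : Function.Bijective ψ :=
    hsurj.bijective_of_nat_card_le hcard.2
  let e := MulEquiv.ofBijective ψ hbij
  refine ⟨rels, hm, hrel, fun G _ f hf => ?_⟩
  refine ⟨(PresentedGroup.toGroup (rels := {r | r ∈ rels}) (f := f) hf).comp e.symm.toMonoidHom, fun i => ?_⟩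
  have : e.symm (fS ω i) = PresentedGroup.of i := by
    rw [MulEquiv.symm_apply_eq]; exact (hψ i).symm
  simp only [MonoidHom.comp_apply, MulEquiv.coe_toMonoidHom, this]
  exact PresentedGroup.toGroup.of (h := hf)

/-- Odd characteristic: four relators besides those between `u` and `h`. -/
theorem relators_odd_of_borel (hp : p ≠ 2) {ω : Fˣ} (hω : ∀ x : Fˣ, x ∈ Subgroup.zpowers ω) {b : ℕ}
    (B : List (FreeGroup (Fin 3))) (hB4 : B.length ≤ b) (hBS : ∀ r ∈ B, FreeGroup.lift (fS ω) r = 1)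
    (hBG : ∀ (G : Type) [Group G] (f : Fin 3 → G), (∀ r ∈ B, FreeGroup.lift f r = 1) →
      f 1 ^ orderOf ω = 1 → ∃ X : F → G, IsUnip (f 0) (f 1) ((ω : F) ^ 2) X) :
    IsRelators ω (b + 4) := by
  classical
  haveI : Fintype F := Fintype.ofFinite F
  haveI : CharP F p := (Algebra.charP_iff (ZMod p) F p).1 (ZMod.charP p)
  set q := Fintype.card F with hq
  have hord : orderOf ω = q - 1 := by
    rw [orderOf_eq_card_of_forall_mem_zpowers hω, Nat.card_units, Nat.card_eq_fintype_card]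
  obtain ⟨N, hqN⟩ : ∃ N, q = 2 * N + 1 := FiniteField.odd_card_of_char_ne_two (by rwa [ringChar.eq F p]) |>
    fun h => Nat.odd_iff.2 h
  have hN1 : 1 ≤ N := by have := Fintype.one_lt_card (α := F); omega
  have hωN : ω ^ N = -1 := by
    have h1 : ((ω ^ N : Fˣ) : F) * (ω ^ N : Fˣ) = 1 := by
      rw [← Units.val_mul, ← pow_add, show N + N = orderOf ω by omega, pow_orderOf_eq_one, Units.val_one]
    rcases mul_self_eq_one_iff.1 h1 with h | h
    · exact absurd (Nat.le_of_dvd hN1 (orderOf_dvd_of_pow_eq_one (Units.ext h))) (by omega)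
    · exact Units.ext (by rw [h]; simp)
  obtain ⟨k, hk⟩ := exists_pow_eq hω (negInv ω)
  obtain ⟨Pω, hPω⟩ := aeval_sq_surjective (p := p) hω (ω : F)
  obtain ⟨Pc, hPc⟩ := aeval_sq_surjective (p := p) hω ((negInv ω : Fˣ) : F)
  let rWH : FreeGroup (Fin 3) := gW * gH * gW⁻¹ * gH
  let r1 : FreeGroup (Fin 3) := gW * gU * gW * (gU⁻¹ * gH ^ N * gW * gU⁻¹)⁻¹
  let rν : FreeGroup (Fin 3) := gW * pval gU gH 1 Pω * gW *
    (pval gU gH 1 Pc * gH ^ k * gW * pval gU gH 1 Pc)⁻¹
  -- the identities in `SL₂`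
  have hS := isUnip_SL (F := F) ω
  have hWH : FreeGroup.lift (fS ω) rWH = 1 := by
    simp only [rWH, map_mul, map_inv, FreeGroup.lift_apply_of]
    show wS * dS ω * wS⁻¹ * dS ω = 1
    rw [wS_dS, ← map_mul, inv_mul_cancel, map_one]
  have h1S : FreeGroup.lift (fS ω) r1 = 1 := by
    simp only [r1, map_mul, map_inv, map_pow, FreeGroup.lift_apply_of]
    show wS * xS 1 * wS * ((xS 1)⁻¹ * dS ω ^ N * wS * (xS 1)⁻¹)⁻¹ = 1
    have h := wS_xS_wS (1 : Fˣ)
    rw [show negInv (1 : Fˣ) = -1 by simp [negInv], Units.val_neg, Units.val_one, hS.neg] at h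
    rw [h, ← map_pow, hωN, mul_inv_cancel]
  have hνS : FreeGroup.lift (fS ω) rν = 1 := by
    simp only [rν, map_mul, map_inv, map_pow, map_pval, FreeGroup.lift_apply_of]
    show wS * pval (xS 1) (dS ω) 1 Pω * wS *
      (pval (xS 1) (dS ω) 1 Pc * dS ω ^ k * wS * pval (xS 1) (dS ω) 1 Pc)⁻¹ = 1
    rw [hS.pval_eq, hS.pval_eq, pow_one, hPω, hPc, ← map_pow, hk, wS_xS_wS, mul_inv_cancel]
  -- the bound for a group with these relations
  have hbound : ∀ (G : Type) [Group G] (f : Fin 3 → G), Subgroup.closure (Set.range f) = ⊤ →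
      (∀ r ∈ B, FreeGroup.lift f r = 1) → FreeGroup.lift f rWH = 1 → FreeGroup.lift f r1 = 1 →
      FreeGroup.lift f rν = 1 → f 2 * f 2 = f 1 ^ N →
      Finite G ∧ Nat.card G ≤ orderOf (f 1) * q * (q + 1) ∧ f 1 ^ (2 * N) = 1 := by
    intro G _ f hgen hfB hfWH hf1 hfν hww
    simp only [rWH, r1, rν, map_mul, map_inv, map_pow, map_pval, FreeGroup.lift_apply_of] at hfWH hf1 hfν
    have hwh : f 2 * f 1 * (f 2)⁻¹ = (f 1)⁻¹ := eq_inv_of_mul_eq_one_left hfWH
    have h2N : f 1 ^ (2 * N) = 1 := by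
      have e : f 2 * f 1 ^ N * (f 2)⁻¹ = (f 1 ^ N)⁻¹ := by
        rw [← MulAut.conj_apply, map_pow, MulAut.conj_apply, hwh, inv_pow]
      rw [← hww, ← mul_assoc, mul_inv_cancel_right, hww] at e
      rw [two_mul, pow_add]
      nth_rewrite 1 [e]
      exact inv_mul_cancel _
    have hL : f 1 ^ orderOf ω = 1 := by rw [hord, show q - 1 = 2 * N by omega, h2N]
    obtain ⟨X, hX⟩ := hBG G f hfB hL
    rw [hX.pval_eq, hX.pval_eq, pow_one, hPω, hPc] at hfν
    rw [range_three] at hgen
    obtain ⟨h1, h2⟩ := card_le_of_rels hω hgen hX hωN hk hL hwh hww (mul_inv_eq_one.1 hf1)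
      (Or.inr (mul_inv_eq_one.1 hfν))
    rw [Nat.card_eq_fintype_card (α := F)] at h2
    exact ⟨h1, h2, h2N⟩
  set R := B ++ [rWH, gW * gW * (gH ^ N)⁻¹, r1, rν] with hR
  refine isRelators_of_bound R ?_ (closure_fS p hω) ?_ (by simp [hR]; omega)
  · intro r hr
    simp only [hR, List.mem_append, List.mem_cons, List.not_mem_nil, or_false] at hr
    rcases hr with hr | rfl | rfl | rfl | rfl
    · exact hBS r hr
    · exact hWH
    · simp only [map_mul, map_inv, map_pow, FreeGroup.lift_apply_of]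
      show wS * wS * (dS ω ^ N)⁻¹ = 1
      rw [← map_pow, hωN, wS_mul_wS, mul_inv_cancel]
    · exact h1S
    · exact hνS
  · have hf : ∀ r ∈ R, FreeGroup.lift (PresentedGroup.of (rels := {r | r ∈ R})) r = 1 := fun r hr =>
      lift_of_eq_one hr
    simp only [hR, List.mem_append, List.mem_cons, List.not_mem_nil, or_false] at hf
    have hw := hf (gW * gW * (gH ^ N)⁻¹) (by simp)
    simp only [map_mul, map_inv, map_pow, FreeGroup.lift_apply_of] at hw
    obtain ⟨h1, h2, h3⟩ := hbound _ _ (PresentedGroup.closure_range_of _) (fun r hr => hf r (Or.inl hr))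
      (hf rWH (by simp)) (hf r1 (by simp)) (hf rν (by simp)) (mul_inv_eq_one.1 hw)
    refine ⟨h1, h2.trans ?_⟩
    have h4 := Nat.le_of_dvd (by omega) (orderOf_dvd_of_pow_eq_one h3)
    rw [ClassicalLinear.card_SL_two hq.symm]
    calc _ ≤ 2 * N * q * (q + 1) := by gcongr
      _ = q * (q ^ 2 - 1) := by
        rw [hqN, show (2 * N + 1) ^ 2 = 2 * N * (2 * N + 2) + 1 by ring, Nat.add_sub_cancel]; ring

/-- Odd characteristic: eight relators from which a homomorphism out of `SL₂` is obtained. -/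
theorem relators_odd (hp : p ≠ 2) {ω : Fˣ} (hω : ∀ x : Fˣ, x ∈ Subgroup.zpowers ω) :
    IsRelators ω 8 := by
  obtain ⟨B, hB4, hBS, hBG⟩ := exists_borel_odd (F := F) hp hω
  exact relators_odd_of_borel hp hω B hB4 hBS hBG

/-- Odd characteristic and degree at most two: seven relators suffice. -/
theorem relators_odd_small (hp : p ≠ 2) {ω : Fˣ} (hω : ∀ x : Fˣ, x ∈ Subgroup.zpowers ω)
    (hn3 : Module.finrank (ZMod p) F < 3) : IsRelators ω 7 := by
  classical
  haveI : Module.Finite (ZMod p) F := Module.Finite.of_finite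
  set g : F := (ω : F) ^ 2 with hgdef
  have hg := aeval_sq_surjective (p := p) hω
  have hS : IsUnip (xS 1) (dS ω) g (xS : F → SL(2, F)) := isUnip_SL ω
  set n := Module.finrank (ZMod p) F with hn
  have hn0 : 0 < n := Module.finrank_pos
  have hdeg : (Polynomial.X ^ n - minpoly (ZMod p) g).natDegree < n := by
    have hint : IsIntegral (ZMod p) g := IsIntegral.of_finite _ g
    have hd := natDegree_minpoly_eq hg
    have hlt : (Polynomial.X ^ n - minpoly (ZMod p) g).degree < (n : WithBot ℕ) := by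
      refine lt_of_lt_of_eq (Polynomial.degree_sub_lt_left ?_ (pow_ne_zero _ Polynomial.X_ne_zero) ?_)
        (Polynomial.degree_X_pow n)
      · rw [Polynomial.degree_X_pow, Polynomial.degree_eq_natDegree (minpoly.ne_zero hint), hd]
      · rw [Polynomial.leadingCoeff_X_pow, (minpoly.monic hint).leadingCoeff]
    rcases eq_or_ne (Polynomial.X ^ n - minpoly (ZMod p) g) 0 with h0 | h0
    · rw [h0, natDegree_zero]; exact hn0
    · exact (Polynomial.natDegree_lt_iff_degree_lt h0).2 hlt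
  refine relators_odd_of_borel hp hω (b := 3)
    [gU ^ p, gU * (gH * gU * gH⁻¹) * gU⁻¹ * (gH * gU * gH⁻¹)⁻¹,
      gH ^ n * gU * (gH ^ n)⁻¹ * (pval gU gH 1 (Polynomial.X ^ n - minpoly (ZMod p) g))⁻¹]
    (by simp) ?_ (fun G _ f hf _ => ?_)
  · simp only [List.forall_mem_cons, List.not_mem_nil, false_implies, implies_true, and_true, map_mul, map_inv,
      map_pow, map_pval, FreeGroup.lift_apply_of]
    show xS 1 ^ p = 1 ∧ xS 1 * (dS ω * xS 1 * (dS ω)⁻¹) * (xS 1)⁻¹ * (dS ω * xS 1 * (dS ω)⁻¹)⁻¹ = 1 ∧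
      dS ω ^ n * xS 1 * (dS ω ^ n)⁻¹ * (pval (xS 1) (dS ω) 1 _)⁻¹ = 1
    refine ⟨?_, ?_, ?_⟩
    · rw [← hS.nsmul, smul_char, hS.zero]
    · rw [hS.conj, mul_one, hS.comm 1 g, mul_inv_cancel_right, mul_inv_cancel]
    · rw [hS.pow_conj, hS.pval_eq, pow_one, map_sub, map_pow, aeval_X, minpoly.aeval, sub_zero, mul_one,
        mul_inv_cancel]
  · simp only [List.forall_mem_cons, List.not_mem_nil, false_implies, implies_true, and_true, map_mul, map_inv,
      map_pow, map_pval, FreeGroup.lift_apply_of] at hf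
    obtain ⟨h1, h2, h3⟩ := hf
    exact unip_small hg (by omega) hdeg h1 (commutatorElement_eq_one_iff_commute.1 h2) (mul_inv_eq_one.1 h3)

/-- Characteristic two: five relators from which a homomorphism out of `SL₂` is obtained. -/
theorem relators_even [Fact (2 : ℕ).Prime] [Algebra (ZMod 2) F] [CharP F 2] {ω : Fˣ}
    (hω : ∀ x : Fˣ, x ∈ Subgroup.zpowers ω) : IsRelators ω 5 := by
  classical
  haveI : Fintype F := Fintype.ofFinite F
  set q := Fintype.card F with hq
  have hq1 : 1 < q := Fintype.one_lt_card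
  have hord : orderOf ω = q - 1 := by
    rw [orderOf_eq_card_of_forall_mem_zpowers hω, Nat.card_units, Nat.card_eq_fintype_card]
  obtain ⟨k, hk⟩ := exists_pow_eq hω (negInv ω)
  have hsq : ∀ t : Fˣ, IsSquare t := fun t => by
    obtain ⟨y, hy⟩ := FiniteField.isSquare_of_char_two (ringChar.eq F 2) (t : F)
    have hy0 : y ≠ 0 := fun h => t.ne_zero (by rw [hy, h, mul_zero])
    exact ⟨Units.mk0 y hy0, Units.ext hy⟩
  have hneg1 : ω ^ 0 = (-1 : Fˣ) := Units.ext (by simp [CharTwo.neg_eq])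
  have hS := isUnip_SL (F := F) ω
  set g : F := (ω : F) ^ 2 with hgdef
  have hg := aeval_sq_surjective (p := 2) hω
  let rWH : FreeGroup (Fin 3) := gW * gH * gW⁻¹ * gH
  let r3 : FreeGroup (Fin 3) := (gU * gW) ^ 3 * (gW * gW)⁻¹
  have hWH : FreeGroup.lift (fS ω) rWH = 1 := by
    simp only [rWH, map_mul, map_inv, FreeGroup.lift_apply_of]
    show wS * dS ω * wS⁻¹ * dS ω = 1
    rw [wS_dS, ← map_mul, inv_mul_cancel, map_one]
  have hone : (-1 : Fˣ) = 1 := Units.ext (by simp [CharTwo.neg_eq])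
  have hxx : xS (1 : F) * xS 1 = 1 := by
    rw [← xS_add, CharTwo.add_self_eq_zero]; exact hS.zero
  have h3S : FreeGroup.lift (fS ω) r3 = 1 := by
    simp only [r3, map_mul, map_inv, map_pow, FreeGroup.lift_apply_of]
    show (xS 1 * wS) ^ 3 * (wS * wS)⁻¹ = 1
    have h := wS_xS_wS (1 : Fˣ)
    rw [show negInv (1 : Fˣ) = 1 by simp [negInv, hone], Units.val_one, map_one, mul_one] at h
    rw [wS_mul_wS, hone, map_one, inv_one, mul_one, pow_succ, pow_two,
      show xS (1 : F) * wS * (xS 1 * wS) * (xS 1 * wS) = xS 1 * (wS * xS 1 * wS) * xS 1 * wS by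
        simp only [mul_assoc], h,
      show xS (1 : F) * (xS 1 * wS * xS 1) * xS 1 * wS = xS 1 * xS 1 * wS * (xS 1 * xS 1) * wS by
        simp only [mul_assoc], hxx, one_mul, mul_one, wS_mul_wS, hone, map_one]
  have hbound : ∀ (G : Type) [Group G] (f : Fin 3 → G), Subgroup.closure (Set.range f) = ⊤ →
      f 0 * f 0 = 1 → FreeGroup.lift f rWH = 1 → FreeGroup.lift f r3 = 1 → f 1 ^ orderOf ω = 1 →
      (∃ X : F → G, IsUnip (f 0) (f 1) g X) → Finite G ∧ Nat.card G ≤ Nat.card SL(2, F) := by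
    intro G _ f hgen hu hfWH hf3 hL hX
    obtain ⟨X, hX⟩ := hX
    simp only [rWH, r3, map_mul, map_inv, map_pow, FreeGroup.lift_apply_of] at hfWH hf3
    have hwh : f 2 * f 1 * (f 2)⁻¹ = (f 1)⁻¹ := eq_inv_of_mul_eq_one_left hfWH
    have hui : (f 0)⁻¹ = f 0 := inv_eq_of_mul_eq_one_right hu
    have h5 : f 0 * f 2 * f 0 * f 2 * f 0 = f 2 := by
      have := mul_inv_eq_one.1 hf3
      rw [pow_succ, pow_two] at this
      refine mul_right_cancel (b := f 2) ?_
      simp only [← mul_assoc] at this ⊢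
      exact this
    have hbraid : f 2 * f 0 * f 2 = f 0 * f 2 * f 0 := by
      have := congrArg (fun z => f 0 * z * f 0) h5
      simp only [← mul_assoc, hu, one_mul] at this
      rw [mul_assoc (f 2 * f 0 * f 2) (f 0), hu, mul_one] at this
      exact this
    have hww : f 2 * f 2 = 1 := by
      have h6 : f 2 = (f 0 * f 2 * f 0) * f 0 * (f 0 * f 2 * f 0)⁻¹ := by
        rw [eq_mul_inv_iff_mul_eq]
        calc f 2 * (f 0 * f 2 * f 0) = (f 2 * f 0 * f 2) * f 0 := by simp only [mul_assoc]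
          _ = _ := by rw [hbraid]
      rw [h6, show ∀ a b : G, a * b * a⁻¹ * (a * b * a⁻¹) = a * (b * b) * a⁻¹ from fun a b => by group,
        hu, mul_one, mul_inv_cancel]
    rw [range_three] at hgen
    obtain ⟨h1, h2⟩ := card_le_of_rels hω hgen hX hneg1 hk hL hwh (by rw [hww, pow_zero])
      (by rw [hbraid, hui, pow_zero, mul_one]) (Or.inl hsq)
    refine ⟨h1, h2.trans ?_⟩
    have h4 := Nat.le_of_dvd (orderOf_pos ω) (orderOf_dvd_of_pow_eq_one hL)
    rw [Nat.card_eq_fintype_card (α := F), ClassicalLinear.card_SL_two hq.symm]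
    calc _ ≤ (q - 1) * q * (q + 1) := by rw [← hord]; gcongr
      _ = q * (q ^ 2 - 1) := by
        obtain ⟨L, hL'⟩ : ∃ L, q = L + 1 := ⟨q - 1, by omega⟩
        rw [hL', show (L + 1) ^ 2 = L * (L + 2) + 1 by ring, Nat.add_sub_cancel, Nat.add_sub_cancel]; ring
  rcases eq_or_ne ω 1 with hω1 | hω1
  · -- the field with two elements
    set R := [gU * gU, gH, rWH, r3] with hR
    refine isRelators_of_bound R ?_ (closure_fS 2 hω) ?_ (by simp [hR])
    · intro r hr
      simp only [hR, List.mem_cons, List.not_mem_nil, or_false] at hr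
      rcases hr with rfl | rfl | rfl | rfl
      · simp only [map_mul, FreeGroup.lift_apply_of]; exact hxx
      · simp only [FreeGroup.lift_apply_of]
        show dS ω = 1
        rw [hω1, map_one]
      · exact hWH
      · exact h3S
    · have hf : ∀ r ∈ R, FreeGroup.lift (PresentedGroup.of (rels := {r | r ∈ R})) r = 1 := fun r hr =>
        lift_of_eq_one hr
      have hu := hf (gU * gU) (by simp [hR])
      have hh := hf gH (by simp [hR])
      simp only [map_mul, FreeGroup.lift_apply_of] at hu hh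
      refine hbound _ _ (PresentedGroup.closure_range_of _) hu (hf rWH (by simp [hR])) (hf r3 (by simp [hR]))
        (by rw [hh, one_pow]) ?_
      have hg1 : g = 1 := by rw [hgdef, hω1, Units.val_one, one_pow]
      rw [← hgdef, hg1] at hg
      rw [hg1]
      have hM : Polynomial.X ^ 1 - minpoly (ZMod 2) (1 : F) = 1 := by rw [minpoly.one, pow_one, sub_sub_cancel]
      refine unip_small hg (n := 1) (Or.inl rfl) (by rw [hM, natDegree_one]; norm_num) (by rw [sq, hu])
        (by rw [hh, one_mul, inv_one, mul_one]) ?_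
      rw [hM, pow_one, hh, one_mul, inv_one, mul_one, pval, natDegree_one]
      simp [ZMod.val_one]
  · have hg1 : g ≠ 1 := fun h => hω1 (by
      obtain ⟨s, hs⟩ := hsq ω
      refine Units.ext ?_
      rw [hgdef, sq] at h
      rcases mul_self_eq_one_iff.1 h with h | h
      · simpa using h
      · simpa [CharTwo.neg_eq] using h)
    obtain ⟨j, hj⟩ : ∃ j : ℕ, g ^ j = 1 + g := by
      have hne : (1 : F) + g ≠ 0 := fun h => hg1 (by rwa [CharTwo.add_eq_zero, eq_comm] at h)
      obtain ⟨s, hs⟩ := hsq (Units.mk0 _ hne)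
      obtain ⟨j, rfl⟩ := exists_pow_eq hω s
      refine ⟨j, ?_⟩
      rw [hgdef, ← pow_mul, mul_comm, pow_mul, sq, ← Units.val_pow_eq_pow_val, ← Units.val_mul, ← hs]
      rfl
    set R := [gU * gU, gH ^ j * gU * (gH ^ j)⁻¹ * (gU * (gH * gU * gH⁻¹))⁻¹,
      pval gU gH 1 (minpoly (ZMod 2) g) * (gH ^ orderOf ω)⁻¹, rWH, r3] with hR
    refine isRelators_of_bound R ?_ (closure_fS 2 hω) ?_ (by simp [hR])
    · intro r hr
      simp only [hR, List.mem_cons, List.not_mem_nil, or_false] at hr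
      rcases hr with rfl | rfl | rfl | rfl | rfl
      · simp only [map_mul, FreeGroup.lift_apply_of]; exact hxx
      · simp only [map_mul, map_inv, map_pow, FreeGroup.lift_apply_of]
        show dS ω ^ j * xS 1 * (dS ω ^ j)⁻¹ * (xS 1 * (dS ω * xS 1 * (dS ω)⁻¹))⁻¹ = 1
        rw [hS.pow_conj, hS.conj, mul_one, mul_one, ← hS.add, hj, mul_inv_cancel]
      · simp only [map_mul, map_inv, map_pow, map_pval, FreeGroup.lift_apply_of]
        show pval (xS 1) (dS ω) 1 (minpoly (ZMod 2) g) * (dS ω ^ orderOf ω)⁻¹ = 1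
        rw [hS.pval_eq, pow_one, minpoly.aeval, hS.zero, ← map_pow, pow_orderOf_eq_one, map_one, inv_one, mul_one]
      · exact hWH
      · exact h3S
    · have hf : ∀ r ∈ R, FreeGroup.lift (PresentedGroup.of (rels := {r | r ∈ R})) r = 1 := fun r hr =>
        lift_of_eq_one hr
      have hu := hf (gU * gU) (by simp [hR])
      have hja := hf (gH ^ j * gU * (gH ^ j)⁻¹ * (gU * (gH * gU * gH⁻¹))⁻¹) (by simp [hR])
      have hMa := hf (pval gU gH 1 (minpoly (ZMod 2) g) * (gH ^ orderOf ω)⁻¹) (by simp [hR])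
      simp only [map_mul, map_inv, map_pow, map_pval, FreeGroup.lift_apply_of] at hu hja hMa
      obtain ⟨hX, hL⟩ := unip_even rfl hg hu (mul_inv_eq_one.1 hja) (mul_inv_eq_one.1 hMa)
      exact hbound _ _ (PresentedGroup.closure_range_of _) hu (hf rWH (by simp [hR])) (hf r3 (by simp [hR])) hL hX

end CfsgLib.SL3Pres
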