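import Cfsg.Agent.Lib.SL2Pres.Core

/-!
Identities in `SL₂(F)` between the root elements, the torus and the Weyl element.
-/

set_option autoImplicit false

namespace CfsgLib.SL3Pres

open CfsgLib.SL2Pres
open scoped MatrixGroups

set_option linter.unusedSectionVars false

variable {F : Type*} [Field F] [Finite F]

local macro "sl2ext" : tactic =>
  `(tactic| (refine Matrix.SpecialLinearGroup.ext _ _ fun i j => ?_ <;> fin_cases i <;> fin_cases j <;>
    simp [coe_xS, coe_yS, coe_wS, coe_dS, Units.val_inv_eq_inv_val, Matrix.SpecialLinearGroup.coe_mul,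
      Matrix.mul_apply, Fin.sum_univ_two] <;> field_simp <;> ring_nf))

theorem yS_add (s t : F) : yS (s + t) = yS s * yS t := by sl2ext

theorem yS_zero : yS (0 : F) = 1 := by
  have := yS_add (0 : F) 0
  rw [add_zero] at this
  exact mul_eq_left.1 this.symm

theorem xS_zero : xS (0 : F) = 1 := by
  have := xS_add (0 : F) 0
  rw [add_zero] at this
  exact mul_eq_left.1 this.symm

theorem yS_neg (t : F) : yS (-t) = (yS t)⁻¹ :=
  eq_inv_of_mul_eq_one_right (by rw [← yS_add, add_neg_cancel, yS_zero])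

theorem xS_neg (t : F) : xS (-t) = (xS t)⁻¹ :=
  eq_inv_of_mul_eq_one_right (by rw [← xS_add, add_neg_cancel, xS_zero])

theorem wS_conj_xS (t : F) : wS * xS t * (wS : SL(2, F))⁻¹ = yS (-t) := by
  rw [mul_inv_eq_iff_eq_mul]; sl2ext

theorem wS_conj_yS (t : F) : wS * yS t * (wS : SL(2, F))⁻¹ = xS (-t) := by
  rw [mul_inv_eq_iff_eq_mul]; sl2ext

theorem wS_inv_conj_xS (t : F) : (wS : SL(2, F))⁻¹ * xS t * wS = yS (-t) := by
  rw [mul_assoc, inv_mul_eq_iff_eq_mul]; sl2ext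

theorem wS_inv_conj_yS (t : F) : (wS : SL(2, F))⁻¹ * yS t * wS = xS (-t) := by
  rw [mul_assoc, inv_mul_eq_iff_eq_mul]; sl2ext

theorem dS_yS (s : Fˣ) (t : F) : dS s * yS t * (dS s)⁻¹ = yS (((s⁻¹ : Fˣ) : F) ^ 2 * t) := by
  rw [mul_inv_eq_iff_eq_mul]; sl2ext

theorem wS_eq : (wS : SL(2, F)) = xS 1 * yS (-1) * xS 1 := by sl2ext

theorem dS_mul_wS (s : Fˣ) :
    dS s * (wS : SL(2, F)) = xS (s : F) * yS (-((s⁻¹ : Fˣ) : F)) * xS (s : F) := by sl2ext

theorem xS_mul_wS (t : Fˣ) :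
    xS (t : F) * wS = yS ((t⁻¹ : Fˣ) : F) * dS (-t) * xS (-((t⁻¹ : Fˣ) : F)) := by sl2ext

theorem xS_mul_yS (t a : F) (s : Fˣ) (hs : (s : F) = 1 + t * a) :
    xS t * yS a = yS (a / s) * dS s * xS (t / s) := by
  have h0 : (s : F) ≠ 0 := s.ne_zero
  refine Matrix.SpecialLinearGroup.ext _ _ fun i j => ?_
  fin_cases i <;> fin_cases j <;>
    simp [coe_xS, coe_yS, coe_dS, Units.val_inv_eq_inv_val, Matrix.SpecialLinearGroup.coe_mul,
      Matrix.mul_apply, Fin.sum_univ_two] <;>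
    field_simp <;> first | ring1 | linear_combination hs | linear_combination -hs

theorem xS_mul_yS_of_eq (t : Fˣ) :
    xS (t : F) * yS (-((t⁻¹ : Fˣ) : F)) = dS t * wS * xS (-(t : F)) := by sl2ext

/-- `SL₂` is generated by its two root groups. -/
theorem closure_roots (S : Subgroup (SL(2, F))) (hx : ∀ t, xS t ∈ S) (hy : ∀ t, yS t ∈ S) : S = ⊤ :=
  closure_SL hx (by rw [wS_eq]; exact mul_mem (mul_mem (hx _) (hy _)) (hx _))

end CfsgLib.SL3Pres
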